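import Cfsg.Agent.Lib.Helper89.UniSL
import Cfsg.Agent.Lib.Helper47.SLn
import Cfsg.Agent.Lib.Helper58.PGroup

/-!
# Structure of the unitriangular group: generation, centre, fusion-closed subgroups
-/

set_option autoImplicit false
set_option linter.unusedSimpArgs false

namespace Cfsg.Agent.Lib.Helper89.UT

open Matrix Matrix.SpecialLinearGroup Cfsg.Agent.Lib.Helper47

variable {n : ℕ} {K : Type*} [Field K]

theorem code_inj {a b x y : Fin n} (h : y.val + n * x.val = b.val + n * a.val) : x = a ∧ y = b := by
  have h1 : finProdFinEquiv (x, y) = finProdFinEquiv (a, b) := Fin.ext (by simpa using h)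
  have h2 := finProdFinEquiv.injective h1
  exact ⟨congrArg Prod.fst h2, congrArg Prod.snd h2⟩

theorem code_lt {a b x y : Fin n} (h : a < x) : b.val + n * a.val < y.val + n * x.val := by
  have h1 : n * (a.val + 1) ≤ n * x.val := Nat.mul_le_mul_left n h
  have h2 := b.2
  rw [Nat.mul_add, mul_one] at h1
  omega

theorem tv_mul_same {i j : Fin n} (hij : i ≠ j) (c : K) (M : SpecialLinearGroup (Fin n) K)
    (b : Fin n) : (transvection hij c * M).1 i b = M.1 i b + c * M.1 j b :=
  Matrix.transvection_mul_apply_same i j b c M.1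

theorem tv_mul_of_ne {i j : Fin n} (hij : i ≠ j) (c : K) (M : SpecialLinearGroup (Fin n) K)
    {a : Fin n} (b : Fin n) (ha : a ≠ i) : (transvection hij c * M).1 a b = M.1 a b :=
  Matrix.transvection_mul_apply_of_ne i j a b ha c M.1

theorem mul_tv_same {i j : Fin n} (hij : i ≠ j) (c : K) (M : SpecialLinearGroup (Fin n) K)
    (a : Fin n) : (M * transvection hij c).1 a j = M.1 a j + c * M.1 a i :=
  Matrix.mul_transvection_apply_same i j a c M.1

theorem mul_tv_of_ne {i j : Fin n} (hij : i ≠ j) (c : K) (M : SpecialLinearGroup (Fin n) K)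
    (a : Fin n) {b : Fin n} (hb : b ≠ j) : (M * transvection hij c).1 a b = M.1 a b :=
  Matrix.mul_transvection_apply_of_ne i j a b hb c M.1

/-- What commuting with an elementary transvection says about the entries. -/
theorem comm_entries {x : SpecialLinearGroup (Fin n) K} {a b : Fin n} (hab : a ≠ b)
    (h : x * transvection hab 1 = transvection hab 1 * x) :
    (∀ c, c ≠ a → x.1 c a = 0) ∧ (∀ d, d ≠ b → x.1 b d = 0) ∧ x.1 a a = x.1 b b := by
  refine ⟨fun c hc => ?_, fun d hd => ?_, ?_⟩
  · have h1 := congrArg (fun M : SpecialLinearGroup (Fin n) K => M.1 c b) h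
    simp only [mul_tv_same, tv_mul_of_ne hab 1 x b hc] at h1
    simpa using h1
  · have h1 := congrArg (fun M : SpecialLinearGroup (Fin n) K => M.1 a d) h
    simp only [tv_mul_same, mul_tv_of_ne hab 1 x a hd] at h1
    simpa using h1.symm
  · have h1 := congrArg (fun M : SpecialLinearGroup (Fin n) K => M.1 a b) h
    simp only [tv_mul_same, mul_tv_same] at h1
    simpa using h1

theorem tv_conj1 {i j k : Fin n} (hij : i ≠ j) (hik : i ≠ k) (hkj : k ≠ j) (x y : K) :
    transvection hkj y * transvection hik x * (transvection hkj y)⁻¹ =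
      transvection hik x * transvection hij (-(x * y)) := by
  rw [transvection_inv]
  apply sl_ext_smul
  intro w
  funext l
  simp only [mul_smul, transvection_smul_apply]
  by_cases hli : l = i
  · subst hli
    simp [hik, hij.symm, hik.symm, hkj.symm, hij, hkj]
    ring
  · by_cases hlk : l = k
    · subst hlk
      simp [hij.symm, hik.symm, hkj.symm, hij, hkj]
    · simp [hli, hlk]

theorem tv_conj2 {i j k : Fin n} (hij : i ≠ j) (hik : i ≠ k) (hkj : k ≠ j) (x y : K) :
    transvection hik x * transvection hkj y * (transvection hik x)⁻¹ =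
      transvection hkj y * transvection hij (x * y) := by
  rw [transvection_inv]
  apply sl_ext_smul
  intro w
  funext l
  simp only [mul_smul, transvection_smul_apply]
  by_cases hli : l = i
  · subst hli
    simp [hik, hij.symm, hik.symm, hkj.symm, hij, hkj]
    ring
  · by_cases hlk : l = k
    · subst hlk
      simp [hij.symm, hik.symm, hkj.symm, hij, hkj]
    · simp [hli, hlk]

variable [Finite K]

/-- `U` is generated by the elementary upper transvections. -/
theorem U_le_of_transvection_mem (T : Subgroup (SpecialLinearGroup (Fin n) K))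
    (hT : ∀ (a b : Fin n) (h : a < b) (c : K), transvection (ne_of_lt h) c ∈ T) : U n K ≤ T := by
  have key : ∀ m : ℕ, ∀ u ∈ U n K,
      (∀ a b : Fin n, a < b → m ≤ b.val + n * a.val → u.1 a b = 0) → u ∈ T := by
    intro m
    induction m with
    | zero =>
      intro u hu h
      have : u = 1 := by
        apply Subtype.ext
        ext a b
        rcases lt_or_ge a b with hab | hab
        · rw [h a b hab (Nat.zero_le _)]
          exact (Matrix.one_apply_ne (ne_of_lt hab)).symm
        · exact hu a b hab
      rw [this]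
      exact T.one_mem
    | succ m ih =>
      intro u hu h
      by_cases hex : ∃ a b : Fin n, a < b ∧ b.val + n * a.val = m
      · obtain ⟨a, b, hab, hm⟩ := hex
        have hu' : transvection (ne_of_lt hab) (-(u.1 a b)) * u ∈ T := by
          refine ih _ ((U n K).mul_mem (transvection_mem_U hab _) hu) ?_
          intro x y hxy hle
          by_cases hxa : x = a
          · subst hxa
            rw [tv_mul_same]
            by_cases hyb : y = b
            · subst hyb
              rw [U_apply_self hu]
              ring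
            · have h1 : u.1 x y = 0 := by
                apply h x y hxy
                rcases Nat.lt_or_ge m (y.val + n * x.val) with h2 | h2
                · exact h2
                · exact absurd (code_inj (le_antisymm (hm ▸ h2) (hm ▸ hle))).2 hyb
              have h2 : u.1 b y = 0 := by
                rcases lt_or_gt_of_ne hyb with h3 | h3
                · exact U_apply_lt hu h3
                · apply h b y h3
                  have := code_lt (b := b) (y := y) hab
                  omega
              rw [h1, h2]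
              ring
          · rw [tv_mul_of_ne _ _ _ _ hxa]
            apply h x y hxy
            rcases Nat.lt_or_ge m (y.val + n * x.val) with h2 | h2
            · exact h2
            · exact absurd (code_inj (le_antisymm (hm ▸ h2) (hm ▸ hle))).1 hxa
        have h3 : u = (transvection (ne_of_lt hab) (-(u.1 a b)))⁻¹ *
            (transvection (ne_of_lt hab) (-(u.1 a b)) * u) := by
          rw [inv_mul_cancel_left]
        rw [h3]
        exact T.mul_mem (T.inv_mem (hT a b hab _)) hu'
      · apply ih u hu
        intro a b hab hle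
        apply h a b hab
        rcases Nat.lt_or_ge m (b.val + n * a.val) with h2 | h2
        · exact h2
        · exact absurd ⟨a, b, hab, le_antisymm h2 hle⟩ hex
  intro u hu
  refine key (n + n * n) u hu ?_
  intro a b _ hle
  have h1 := b.2
  have h2 : n * a.val ≤ n * n := Nat.mul_le_mul_left n a.2.le
  omega

/-- An element of `U` commuting with all elementary upper transvections is a corner transvection. -/
theorem eq_transvection_of_central {i0 iL : Fin n} (h0 : i0.val = 0) (hL : iL.val = n - 1)
    (h0L : i0 ≠ iL) {x : SpecialLinearGroup (Fin n) K} (hx : x ∈ U n K)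
    (hc : ∀ (a b : Fin n) (h : a < b),
      x * transvection (ne_of_lt h) 1 = transvection (ne_of_lt h) 1 * x) :
    x = transvection h0L (x.1 i0 iL) := by
  apply Subtype.ext
  ext a b
  rw [transvection_coe, Matrix.add_apply, Matrix.single_apply]
  rcases lt_or_ge a b with hab | hab
  · rw [Matrix.one_apply_ne (ne_of_lt hab), zero_add]
    by_cases h : i0 = a ∧ iL = b
    · rw [if_pos h, h.1, h.2]
    · rw [if_neg h]
      by_cases h1 : iL = b
      · have h2 : i0 ≠ a := fun h2 => h ⟨h2, h1⟩
        have h3 : i0 < a := by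
          rw [Fin.lt_def]
          have : i0.val ≠ a.val := fun h4 => h2 (Fin.ext h4)
          omega
        exact (comm_entries _ (hc _ a h3)).2.1 b (ne_of_gt hab)
      · have h3 : b < iL := by
          rw [Fin.lt_def]
          have : iL.val ≠ b.val := fun h4 => h1 (Fin.ext h4)
          have := b.2
          omega
        exact (comm_entries _ (hc b _ h3)).1 a (ne_of_lt hab)
  · rw [hx a b hab, if_neg, add_zero]
    rintro ⟨rfl, rfl⟩
    rw [Fin.le_def] at hab
    exact h0L (Fin.ext (by omega))

/-- `U` has no proper nontrivial subgroup closed under fusion in `SL_n(K)`, `n ≥ 3`. -/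
theorem closed_U (p : ℕ) [Fact p.Prime] [CharP K p] (hn : 3 ≤ n)
    (T : Subgroup (SpecialLinearGroup (Fin n) K)) (hT : T ≤ U n K) (hne : T ≠ ⊥)
    (hcl : ∀ x ∈ T, ∀ g : SpecialLinearGroup (Fin n) K, g * x * g⁻¹ ∈ U n K → g * x * g⁻¹ ∈ T) :
    T = U n K := by
  obtain ⟨i0, h0⟩ : ∃ i : Fin n, i.val = 0 := ⟨⟨0, by omega⟩, rfl⟩
  obtain ⟨i1, h1'⟩ : ∃ i : Fin n, i.val = 1 := ⟨⟨1, by omega⟩, rfl⟩
  obtain ⟨iL, hL⟩ : ∃ i : Fin n, i.val = n - 1 := ⟨⟨n - 1, by omega⟩, rfl⟩
  have hlt : ∀ {a b : Fin n}, a.val < b.val → a < b := fun h => h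
  have h0Llt : i0 < iL := hlt (by omega)
  have h0L : i0 ≠ iL := ne_of_lt h0Llt
  -- a central element
  obtain ⟨c₀, hc₀, hcT⟩ : ∃ c₀ : K, c₀ ≠ 0 ∧ transvection h0L c₀ ∈ T := by
    have hnorm : (T.subgroupOf (U n K)).Normal := by
      refine ⟨fun x hx u => ?_⟩
      exact hcl x.1 hx u.1 ((U n K).mul_mem ((U n K).mul_mem u.2 x.2) ((U n K).inv_mem u.2))
    have hne' : T.subgroupOf (U n K) ≠ ⊥ := by
      intro h
      rw [Subgroup.subgroupOf_eq_bot, disjoint_iff, inf_eq_left.2 hT] at h
      exact hne h
    have h1 := Cfsg.Agent.Lib.Helper58.normal_inf_center_ne_bot (isPGroup_U (n := n) (K := K) p)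
      (T.subgroupOf (U n K)) hne'
    obtain ⟨⟨z, hz⟩, hz1⟩ := (Subgroup.ne_bot_iff_exists_ne_one).1 h1
    have hzc : ∀ (a b : Fin n) (h : a < b),
        z.1 * transvection (ne_of_lt h) 1 = transvection (ne_of_lt h) 1 * z.1 := by
      intro a b h
      have h2 := (Subgroup.mem_center_iff.1 hz.2) ⟨_, transvection_mem_U h (1 : K)⟩
      exact (congrArg Subtype.val h2).symm
    have h3 := eq_transvection_of_central h0 hL h0L z.2 hzc
    have hzT : z.1 ∈ T := hz.1
    refine ⟨_, ?_, h3 ▸ hzT⟩
    intro h4
    rw [h4, transvection_coeff_zero] at h3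
    exact hz1 (Subtype.ext (Subtype.ext h3))
  -- first row
  have hrow1 : ∀ (b : Fin n) (h0b : i0 < b) (_ : b < iL)
      (c : K), transvection (ne_of_lt h0b) c ∈ T := by
    intro b h0b hbL c
    have h1 := tv_conj1 (ne_of_lt h0b) h0L (ne_of_gt hbL) c₀ (-(c / c₀))
    have h2 : transvection h0L c₀ * transvection (ne_of_lt h0b) (-(c₀ * -(c / c₀))) ∈ U n K :=
      (U n K).mul_mem (hT hcT) (transvection_mem_U h0b _)
    have h3 := hcl _ hcT (transvection (ne_of_gt hbL) (-(c / c₀))) (by rw [h1]; exact h2)
    rw [h1] at h3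
    have h4 : -(c₀ * -(c / c₀)) = c := by field_simp
    rw [h4] at h3
    exact (Subgroup.mul_mem_cancel_left T hcT).1 h3
  have hrowL : ∀ c : K, transvection h0L c ∈ T := by
    intro c
    have h01 : i0 < i1 := hlt (by omega)
    have h1L : i1 < iL := hlt (by omega)
    have hm := hrow1 _ h01 h1L 1
    have h1 := tv_conj1 h0L (ne_of_lt h01) (ne_of_lt h1L) 1 (-c)
    have h2 : transvection (ne_of_lt h01) (1 : K) * transvection h0L (-(1 * -c)) ∈ U n K :=
      (U n K).mul_mem (hT hm) (transvection_mem_U h0Llt _)
    have h3 := hcl _ hm (transvection (ne_of_lt h1L) (-c)) (by rw [h1]; exact h2)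
    rw [h1] at h3
    have h4 : -(1 * -c) = c := by ring
    rw [h4] at h3
    exact (Subgroup.mul_mem_cancel_left T hm).1 h3
  have hrow : ∀ (b : Fin n) (h0b : i0 < b) (c : K),
      transvection (ne_of_lt h0b) c ∈ T := by
    intro b h0b c
    by_cases hb : b = iL
    · subst hb
      exact hrowL c
    · refine hrow1 b h0b (hlt ?_) c
      have : b.val ≠ iL.val := fun h => hb (Fin.ext h)
      have := b.2
      omega
  apply le_antisymm hT
  apply U_le_of_transvection_mem
  intro a b hab c
  by_cases ha : a = i0
  · subst ha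
    exact hrow b hab c
  · have h0a : i0 < a := by
      refine hlt ?_
      have : a.val ≠ i0.val := fun h => ha (Fin.ext h)
      omega
    have h0b : i0 < b := h0a.trans hab
    have hm := hrow b h0b 1
    have h1 := tv_conj2 (ne_of_lt hab) (ne_of_gt h0a) (ne_of_lt h0b) c 1
    have h2 : transvection (ne_of_lt h0b) (1 : K) * transvection (ne_of_lt hab) (c * 1) ∈ U n K :=
      (U n K).mul_mem (hT hm) (transvection_mem_U hab _)
    have h3 := hcl _ hm (transvection (ne_of_gt h0a) c) (by rw [h1]; exact h2)
    rw [h1, mul_one] at h3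
    exact (Subgroup.mul_mem_cancel_left T hm).1 h3

end Cfsg.Agent.Lib.Helper89.UT
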