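import Mathlib
import Cfsg.Agent.Lib.Helper86.OliverB
import Cfsg.Agent.Lib.Helper89.AbIndexP
import Cfsg.Agent.Lib.Helper89.OliverLocal

set_option autoImplicit false
set_option linter.unusedSectionVars false
set_option linter.deprecated false

namespace Cfsg.Agent.Lib.Helper89

open scoped commutatorElement
open Cfsg.Agent.Lib.Helper86.Oliver

section general

variable {G G' : Type*} [Group G] [Group G']

/-- `|X| = |X ∩ ker f| · |f(X)|`. -/
theorem card_eq_card_inf_ker_mul (f : G →* G') (X : Subgroup G) :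
    Nat.card X = Nat.card (X ⊓ f.ker : Subgroup G) * Nat.card (X.map f) := by
  have h1 := Subgroup.card_mul_index (f.comp X.subtype).ker
  rw [Subgroup.index_ker] at h1
  have h2 : (f.comp X.subtype).range = X.map f := by
    rw [MonoidHom.range_eq_map, ← Subgroup.map_map, ← MonoidHom.range_eq_map, Subgroup.range_subtype]
  have h3 : (f.comp X.subtype).ker = (X ⊓ f.ker).subgroupOf X := by
    rw [inf_comm, Subgroup.inf_subgroupOf_right]
    rfl
  rw [h2, h3, Nat.card_congr (Subgroup.subgroupOfEquivOfLe (inf_le_left : X ⊓ f.ker ≤ X)).toEquiv]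
    at h1
  exact h1.symm

theorem card_comap_eq (f : G →* G') (W : Subgroup G') :
    Nat.card (W.comap f) = Nat.card f.ker * Nat.card (W ⊓ f.range : Subgroup G') := by
  rw [card_eq_card_inf_ker_mul f (W.comap f), Subgroup.map_comap_eq, inf_comm W,
    inf_eq_right.2 (show f.ker ≤ W.comap f from fun x hx => by
      rw [Subgroup.mem_comap, MonoidHom.mem_ker.1 hx]; exact W.one_mem)]

/-- The kernels of the iterates of an endomorphism. -/
def iterKer (f : G →* G) : ℕ → Subgroup G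
  | 0 => ⊥
  | (j + 1) => (iterKer f j).comap f

theorem mem_iterKer (f : G →* G) (j : ℕ) (a : G) : a ∈ iterKer f j ↔ f^[j] a = 1 := by
  induction j generalizing a with
  | zero => exact Subgroup.mem_bot
  | succ j ih =>
    rw [Function.iterate_succ_apply, ← ih]
    rfl

theorem card_iterKer_inf_le [Finite G] (f : G →* G) (j : ℕ) :
    Nat.card (iterKer f j ⊓ f.range : Subgroup G) ≤ Nat.card (f.ker ⊓ f.range : Subgroup G) ^ j := by
  induction j with
  | zero =>
    have : iterKer f 0 ⊓ f.range = ⊥ := bot_inf_eq _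
    rw [this, Subgroup.card_bot, pow_zero]
  | succ j ih =>
    rw [card_eq_card_inf_ker_mul f, pow_succ, mul_comm]
    refine Nat.mul_le_mul (le_trans (Subgroup.card_le_of_le ?_) ih) (Subgroup.card_le_of_le ?_)
    · rintro _ ⟨a, ha, rfl⟩
      exact ⟨ha.1, ⟨a, rfl⟩⟩
    · intro a ha
      exact ⟨ha.2, ha.1.2⟩

theorem card_iterKer_le [Finite G] (f : G →* G) (j : ℕ) :
    Nat.card (iterKer f (j + 1)) ≤ Nat.card f.ker * Nat.card (f.ker ⊓ f.range : Subgroup G) ^ j := by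
  rw [card_eq_card_inf_ker_mul f]
  refine Nat.mul_le_mul (Subgroup.card_le_of_le inf_le_right)
    (le_trans (Subgroup.card_le_of_le ?_) (card_iterKer_inf_le f j))
  rintro _ ⟨a, ha, rfl⟩
  exact ⟨ha, ⟨a, rfl⟩⟩

/-- If `|G| > |ker f| · |ker f ∩ im f|^j` then `f^(j+1) ≠ 1`. -/
theorem exists_iterate_ne_one [Finite G] (f : G →* G) (j : ℕ)
    (h : Nat.card f.ker * Nat.card (f.ker ⊓ f.range : Subgroup G) ^ j < Nat.card G) :
    ∃ a : G, f^[j + 1] a ≠ 1 := by
  by_contra hcon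
  push Not at hcon
  have htop : iterKer f (j + 1) = ⊤ := by
    rw [eq_top_iff]
    intro a _
    exact (mem_iterKer f (j + 1) a).2 (hcon a)
  have := card_iterKer_le f j
  rw [htop, Subgroup.card_top] at this
  omega

end general

variable {Ω : Type*} [Group Ω] {p : ℕ} [Fact p.Prime] {S A : Subgroup Ω} [Finite S]

theorem abIdx_of_setup (h : Setup p S A) : AbIdx p S A where
  pgrp := h.hS
  le := h.le
  comm := h.comm
  idx := h.idx
  nonab := fun hc => h.na ⟨⟨fun a b => Subtype.ext (hc a a.2 b b.2)⟩⟩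

theorem psi_ker (h : Setup p S A) {x : Ω} (hx : x ∈ S) (hxA : x ∉ A) :
    (h.psi x hx).ker = (S ⊓ Subgroup.centralizer (S : Set Ω)).subgroupOf A := by
  ext a
  rw [MonoidHom.mem_ker, Subgroup.mem_subgroupOf]
  constructor
  · intro h1
    have h2 : (a : Ω) * x * (a : Ω)⁻¹ * x⁻¹ = 1 := congrArg Subtype.val h1
    refine h.mem_center hx hxA a.2 ?_
    have h3 := mul_inv_eq_one.1 h2
    exact mul_inv_eq_iff_eq_mul.1 h3
  · intro h1
    apply Subtype.ext
    show (a : Ω) * x * (a : Ω)⁻¹ * x⁻¹ = 1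
    rw [← (AbIdx.mem_Z_iff.1 h1).2 x hx, mul_inv_cancel_right, mul_inv_cancel]

theorem conj_pow_mem (h : Setup p S A) {x : Ω} (hx : x ∈ S) {a : Ω} (ha : a ∈ A) (l : ℕ) :
    x ^ l * a * (x ^ l)⁻¹ ∈ A := h.conj_mem (S.pow_mem hx l) ha

theorem comm_pow_mem_range (h : Setup p S A) {x : Ω} (hx : x ∈ S) (a : A) (l : ℕ) :
    ∃ b ∈ (h.psi x hx).range, (b : Ω) = a * x ^ l * (a : Ω)⁻¹ * (x ^ l)⁻¹ := by
  induction l with
  | zero => exact ⟨1, Subgroup.one_mem _, by simp⟩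
  | succ l ih =>
    obtain ⟨b, hb, e⟩ := ih
    refine ⟨b * h.psi x hx ⟨x ^ l * a * (x ^ l)⁻¹, conj_pow_mem h hx a.2 l⟩,
      Subgroup.mul_mem _ hb ⟨_, rfl⟩, ?_⟩
    rw [Subgroup.coe_mul, e, Setup.psi_coe]
    show (a : Ω) * x ^ l * (a : Ω)⁻¹ * (x ^ l)⁻¹ *
      (x ^ l * a * (x ^ l)⁻¹ * x * (x ^ l * a * (x ^ l)⁻¹)⁻¹ * x⁻¹) = _
    have e1 : (x ^ l)⁻¹ * x * x ^ l = x := by
      rw [mul_assoc, ← pow_succ', pow_succ, inv_mul_cancel_left]
    calc (a : Ω) * x ^ l * (a : Ω)⁻¹ * (x ^ l)⁻¹ *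
        (x ^ l * a * (x ^ l)⁻¹ * x * (x ^ l * a * (x ^ l)⁻¹)⁻¹ * x⁻¹)
        = a * x ^ l * ((x ^ l)⁻¹ * x * x ^ l) * (a : Ω)⁻¹ * (x ^ l)⁻¹ * x⁻¹ := by group
      _ = a * x ^ (l + 1) * (a : Ω)⁻¹ * (x ^ (l + 1))⁻¹ := by
        rw [e1, pow_succ, mul_inv_rev]
        group

theorem psi_range (h : Setup p S A) {x : Ω} (hx : x ∈ S) (hxA : x ∉ A) :
    (h.psi x hx).range = ((commutator ↥S).map S.subtype).subgroupOf A := by
  have D := abIdx_of_setup h
  apply le_antisymm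
  · rintro _ ⟨a, rfl⟩
    rw [Subgroup.mem_subgroupOf, Setup.psi_coe]
    exact AbIdx.comm_mem_commutator (h.le a.2) hx
  · have key : commutator ↥S ≤ (((h.psi x hx).range).map A.subtype).subgroupOf S := by
      rw [commutator_def, Subgroup.commutator_le]
      intro g _ k _
      rw [Subgroup.mem_subgroupOf]
      obtain ⟨a, ha, i, hg⟩ := D.exists_decomp hx hxA g.2
      obtain ⟨b, hb, j, hk⟩ := D.exists_decomp hx hxA k.2
      obtain ⟨c1, hc1, e1⟩ := comm_pow_mem_range h hx ⟨a, ha⟩ j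
      obtain ⟨c2, hc2, e2⟩ := comm_pow_mem_range h hx ⟨b, hb⟩ i
      refine ⟨c1 * c2⁻¹, Subgroup.mul_mem _ hc1 (Subgroup.inv_mem _ hc2), ?_⟩
      show ((c1 * c2⁻¹ : A) : Ω) = (g : Ω) * k * (g : Ω)⁻¹ * (k : Ω)⁻¹
      rw [Subgroup.coe_mul, Subgroup.coe_inv, e1, e2, hg, hk]
      show a * x ^ j * a⁻¹ * (x ^ j)⁻¹ * (b * x ^ i * b⁻¹ * (x ^ i)⁻¹)⁻¹ = _
      have hu : x ^ i * b * (x ^ i)⁻¹ ∈ A := conj_pow_mem h hx hb i
      have hv : x ^ j * a⁻¹ * (x ^ j)⁻¹ ∈ A := conj_pow_mem h hx (A.inv_mem ha) j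
      have hcomm : (x ^ j)⁻¹ * x ^ i = x ^ i * (x ^ j)⁻¹ :=
        (((Commute.refl x).pow_pow j i).inv_left).eq
      have hcomm' : x ^ j * (x ^ i)⁻¹ = (x ^ i)⁻¹ * x ^ j :=
        (((Commute.refl x).pow_pow j i).inv_right).eq
      calc a * x ^ j * a⁻¹ * (x ^ j)⁻¹ * (b * x ^ i * b⁻¹ * (x ^ i)⁻¹)⁻¹
          = a * ((x ^ j * a⁻¹ * (x ^ j)⁻¹) * (x ^ i * b * (x ^ i)⁻¹)) * b⁻¹ := by group
        _ = a * ((x ^ i * b * (x ^ i)⁻¹) * (x ^ j * a⁻¹ * (x ^ j)⁻¹)) * b⁻¹ := by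
          rw [h.comm _ hv _ hu]
        _ = a * x ^ i * b * ((x ^ i)⁻¹ * x ^ j) * a⁻¹ * (x ^ j)⁻¹ * b⁻¹ := by group
        _ = a * x ^ i * b * (x ^ j * (x ^ i)⁻¹) * a⁻¹ * (x ^ j)⁻¹ * b⁻¹ := by rw [hcomm']
        _ = a * x ^ i * (b * x ^ j) * (a * x ^ i)⁻¹ * (b * x ^ j)⁻¹ := by group
    intro c hc
    obtain ⟨c', hc', e⟩ := Subgroup.mem_subgroupOf.1 hc
    obtain ⟨d, hd, e'⟩ := Subgroup.mem_subgroupOf.1 (key hc')
    have : c = d := Subtype.ext (by rw [← e]; exact e'.symm)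
    rw [this]
    exact hd

theorem setup_of_hyp {p : ℕ} {S : Subgroup Ω} (hS : IsPGroup p S) (A : Subgroup Ω)
    (hA : A ≤ S ∧ IsMulCommutative ↥A ∧ (A.subgroupOf S).index = p)
    (hna : ¬ IsMulCommutative ↥S) : Setup p S A where
  hS := hS
  le := hA.1
  comm := fun a ha b hb => by
    have := hA.2.1
    exact congrArg Subtype.val (mul_comm' (⟨a, ha⟩ : A) ⟨b, hb⟩)
  idx := hA.2.2
  na := hna

/-- RUNG R1 (b). -/
theorem oliver_mem_Z2_iff (p : ℕ) [Fact p.Prime] (hS : IsPGroup p S) (A : Subgroup Ω)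
    (hA : A ≤ S ∧ IsMulCommutative ↥A ∧ (A.subgroupOf S).index = p)
    (hna : ¬ IsMulCommutative ↥S) (x : Ω) (hx : x ∈ S) (hxA : x ∉ A) (a : Ω) (ha : a ∈ A) :
    a ∈ (upperCentralSeries ↥S 2).map S.subtype ↔
      a * x * a⁻¹ * x⁻¹ ∈ S ⊓ Subgroup.centralizer (S : Set Ω) := by
  have h := setup_of_hyp hS A hA hna
  have D := abIdx_of_setup h
  rw [AbIdx.mem_Z2_iff]
  constructor
  · intro h1
    exact h1.2 x hx
  · intro h1
    refine ⟨h.le ha, fun s hs => ?_⟩
    obtain ⟨b, hb, k, rfl⟩ := D.exists_decomp hx hxA hs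
    have hpow : ∀ l : ℕ, a * x ^ l * a⁻¹ * (x ^ l)⁻¹ ∈ S ⊓ Subgroup.centralizer (S : Set Ω) := by
      intro l
      induction l with
      | zero => simp
      | succ l ih =>
        have e : a * x ^ (l + 1) * a⁻¹ * (x ^ (l + 1))⁻¹ =
            (a * x ^ l * a⁻¹ * (x ^ l)⁻¹) * (x ^ l * (a * x * a⁻¹ * x⁻¹) * (x ^ l)⁻¹) := by
          rw [pow_succ, mul_inv_rev]
          group
        rw [e, (AbIdx.mem_Z_iff.1 h1).2 _ (S.pow_mem hx l), mul_inv_cancel_right]
        exact Subgroup.mul_mem _ ih h1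
    have e : a * (b * x ^ k) * a⁻¹ * (b * x ^ k)⁻¹ = b * (a * x ^ k * a⁻¹ * (x ^ k)⁻¹) * b⁻¹ := by
      rw [← mul_assoc, h.comm a ha b hb]
      group
    rw [e, (AbIdx.mem_Z_iff.1 (hpow k)).2 b (h.le hb), mul_inv_cancel_right]
    exact hpow k

theorem card_subgroupOf_eq {H K : Subgroup Ω} (h : H ≤ K) :
    Nat.card (H.subgroupOf K) = Nat.card H :=
  Nat.card_congr (Subgroup.subgroupOfEquivOfLe h).toEquiv

theorem commutator_map_le (h : Setup p S A) : (commutator ↥S).map S.subtype ≤ A := by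
  have D := abIdx_of_setup h
  have key : commutator ↥S ≤ A.subgroupOf S := by
    rw [commutator_def, Subgroup.commutator_le]
    intro g _ k _
    exact Subgroup.mem_subgroupOf.2 (D.comm_mem g.2 k.2)
  rintro _ ⟨c, hc, rfl⟩
  exact Subgroup.mem_subgroupOf.1 (key hc)

theorem card_ker_inf_range (h : Setup p S A) {x : Ω} (hx : x ∈ S) (hxA : x ∉ A) :
    Nat.card ((h.psi x hx).ker ⊓ (h.psi x hx).range : Subgroup A) =
      Nat.card ↥((S ⊓ Subgroup.centralizer (S : Set Ω)) ⊓ ((commutator ↥S).map S.subtype)) := by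
  rw [psi_ker h hx hxA, psi_range h hx hxA]
  have e : (S ⊓ Subgroup.centralizer (S : Set Ω)).subgroupOf A ⊓
      ((commutator ↥S).map S.subtype).subgroupOf A =
      ((S ⊓ Subgroup.centralizer (S : Set Ω)) ⊓ ((commutator ↥S).map S.subtype)).subgroupOf A := rfl
  rw [e]
  exact card_subgroupOf_eq (inf_le_left.trans h.center_le)

theorem card_psi_ker (h : Setup p S A) {x : Ω} (hx : x ∈ S) (hxA : x ∉ A) :
    Nat.card (h.psi x hx).ker = Nat.card ↥(S ⊓ Subgroup.centralizer (S : Set Ω)) := by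
  rw [psi_ker h hx hxA]
  exact card_subgroupOf_eq h.center_le

/-- RUNG R1 (c). -/
theorem oliver_card_preimage (p : ℕ) [Fact p.Prime] (hS : IsPGroup p S) (A : Subgroup Ω)
    (hA : A ≤ S ∧ IsMulCommutative ↥A ∧ (A.subgroupOf S).index = p)
    (hna : ¬ IsMulCommutative ↥S) (x : Ω) (hx : x ∈ S) (hxA : x ∉ A) (Y : Subgroup Ω)
    (hY : ∀ a, a ∈ Y ↔ a ∈ A ∧ a * x * a⁻¹ * x⁻¹ ∈ S ⊓ Subgroup.centralizer (S : Set Ω)) :
    Nat.card Y = Nat.card ↥(S ⊓ Subgroup.centralizer (S : Set Ω)) *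
      Nat.card ↥((S ⊓ Subgroup.centralizer (S : Set Ω)) ⊓ ((commutator ↥S).map S.subtype)) := by
  have h := setup_of_hyp hS A hA hna
  have hYA : Y ≤ A := fun a ha => ((hY a).1 ha).1
  have e1 : Y.subgroupOf A = ((h.psi x hx).ker).comap (h.psi x hx) := by
    ext a
    rw [Subgroup.mem_subgroupOf, hY, Subgroup.mem_comap, psi_ker h hx hxA, Subgroup.mem_subgroupOf,
      Setup.psi_coe]
    exact ⟨fun h1 => h1.2, fun h1 => ⟨a.2, h1⟩⟩
  rw [← card_subgroupOf_eq hYA, e1, card_comap_eq, card_ker_inf_range h hx hxA,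
    card_psi_ker h hx hxA]

theorem iterate_mem_lcs (h : Setup p S A) {x : Ω} (hx : x ∈ S) (a : A) (k : ℕ) :
    ((((h.psi x hx)^[k]) a : A) : Ω) ∈ Subgroup.lowerCentralSeries S k := by
  induction k with
  | zero => exact h.le a.2
  | succ k ih =>
    rw [Function.iterate_succ_apply', Setup.psi_coe, Subgroup.lowerCentralSeries_succ]
    exact Subgroup.commutator_mem_commutator ih hx

theorem card_A_eq (h : Setup p S A) {x : Ω} (hx : x ∈ S) (hxA : x ∉ A) :
    Nat.card A = Nat.card ↥(S ⊓ Subgroup.centralizer (S : Set Ω)) *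
      Nat.card ↥((commutator ↥S).map S.subtype) := by
  have h1 := Subgroup.card_mul_index (h.psi x hx).ker
  rw [Subgroup.index_ker, card_psi_ker h hx hxA, psi_range h hx hxA,
    card_subgroupOf_eq (commutator_map_le h)] at h1
  exact h1.symm

theorem card_S_eq (h : Setup p S A) : Nat.card S = Nat.card A * p := by
  have h1 := Subgroup.card_mul_index (A.subgroupOf S)
  rw [h.idx, card_subgroupOf_eq h.le] at h1
  exact h1.symm

/-- RUNG R1 (a). -/
theorem oliver_group (p : ℕ) [Fact p.Prime] (hS : IsPGroup p S) (A : Subgroup Ω)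
    (hA : A ≤ S ∧ IsMulCommutative ↥A ∧ (A.subgroupOf S).index = p)
    (hna : ¬ IsMulCommutative ↥S)
    (huniq : ∀ B : Subgroup Ω, B ≤ S → IsMulCommutative ↥B → (B.subgroupOf S).index = p → B = A)
    (hcard : Nat.card ↥((S ⊓ Subgroup.centralizer (S : Set Ω)) ⊓
      ((commutator ↥S).map S.subtype)) = p) :
    (upperCentralSeries ↥S 2).map S.subtype ≤ A ∧
    (((S ⊓ Subgroup.centralizer (S : Set Ω)) ⊔ ((commutator ↥S).map S.subtype)).subgroupOf A).index
      = p ∧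
    ((S ⊓ Subgroup.centralizer (S : Set Ω)).subgroupOf
      ((upperCentralSeries ↥S 2).map S.subtype)).index = p ∧
    (∀ m : ℕ, ((S ⊓ Subgroup.centralizer (S : Set Ω)).subgroupOf S).index = p ^ m → 3 ≤ m →
      ¬ Subgroup.lowerCentralSeries S (m - 2) ≤ S ⊓ Subgroup.centralizer (S : Set Ω)) ∧
    (S ⊓ Subgroup.centralizer (S : Set Ω) ≤ (commutator ↥S).map S.subtype → ∀ n : ℕ,
      Nat.card S = p ^ n → 3 ≤ n → Subgroup.lowerCentralSeries S (n - 2) ≠ ⊥) := by
  have h := setup_of_hyp hS A hA hna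
  have D := abIdx_of_setup h
  have hp := (Fact.out : p.Prime)
  obtain ⟨x, hx, hxA⟩ := D.exists_not_mem
  have : Finite A := Finite.of_injective (Subgroup.inclusion h.le) (Subgroup.inclusion_injective _)
  have hZpos : 0 < Nat.card ↥(S ⊓ Subgroup.centralizer (S : Set Ω)) := by
    have : Finite ↥(S ⊓ Subgroup.centralizer (S : Set Ω)) :=
      Finite.of_injective (Subgroup.inclusion (inf_le_left : S ⊓ Subgroup.centralizer (S : Set Ω) ≤ S))
        (Subgroup.inclusion_injective _)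
    exact Nat.card_pos
  have hZ2A : (upperCentralSeries ↥S 2).map S.subtype ≤ A := by
    intro y hy
    by_contra hyA
    obtain ⟨hyS, hyc⟩ := AbIdx.mem_Z2_iff.1 hy
    have hDZ : (commutator ↥S).map S.subtype ≤ S ⊓ Subgroup.centralizer (S : Set Ω) := by
      intro c hc
      have hcA := commutator_map_le h hc
      have h1 : (⟨c, hcA⟩ : A) ∈ (h.psi y hyS).range := by
        rw [psi_range h hyS hyA]
        exact Subgroup.mem_subgroupOf.2 hc
      obtain ⟨a, ha⟩ := h1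
      have h2 : c = a * y * (a : Ω)⁻¹ * y⁻¹ := by
        rw [← Setup.psi_coe h y hyS a, ha]
      have h3 : c = (y * a * y⁻¹ * (a : Ω)⁻¹)⁻¹ := by
        rw [h2]
        group
      rw [h3]
      exact Subgroup.inv_mem _ (hyc a (h.le a.2))
    have hcD : Nat.card ↥((commutator ↥S).map S.subtype) = p := by
      rw [← hcard, inf_eq_right.2 hDZ]
    have H : HType p S A ((S ⊓ Subgroup.centralizer (S : Set Ω)) ⊔ Subgroup.zpowers y) y :=
      ⟨D, hyS, hyA, rfl⟩
    have hBA : ¬ (S ⊓ Subgroup.centralizer (S : Set Ω)) ⊔ Subgroup.zpowers y ≤ A :=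
      fun hle => hyA (hle H.x_mem)
    have hinf : ((S ⊓ Subgroup.centralizer (S : Set Ω)) ⊔ Subgroup.zpowers y) ⊓ A =
        S ⊓ Subgroup.centralizer (S : Set Ω) :=
      le_antisymm (fun u hu => H.mem_Z hu.1 hu.2) (le_inf H.Z_le h.center_le)
    have hcB := h.card_eq H.le hBA
    rw [hinf] at hcB
    have hidx : (((S ⊓ Subgroup.centralizer (S : Set Ω)) ⊔ Subgroup.zpowers y).subgroupOf S).index
        = p := by
      have h1 := Subgroup.card_mul_index
        (((S ⊓ Subgroup.centralizer (S : Set Ω)) ⊔ Subgroup.zpowers y).subgroupOf S)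
      rw [card_subgroupOf_eq H.le, hcB, card_S_eq h, card_A_eq h hx hxA, hcD, mul_comm p] at h1
      exact Nat.eq_of_mul_eq_mul_left (Nat.mul_pos hZpos hp.pos) h1
    have := huniq _ H.le ⟨⟨fun a b => Subtype.ext (H.comm a.2 b.2)⟩⟩ hidx
    exact hyA (this ▸ H.x_mem)
  have hcZ2 : Nat.card ↥((upperCentralSeries ↥S 2).map S.subtype) =
      Nat.card ↥(S ⊓ Subgroup.centralizer (S : Set Ω)) * p := by
    rw [← hcard]
    refine oliver_card_preimage p hS A hA hna x hx hxA _ (fun a => ?_)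
    constructor
    · intro ha
      exact ⟨hZ2A ha, (oliver_mem_Z2_iff p hS A hA hna x hx hxA a (hZ2A ha)).1 ha⟩
    · rintro ⟨ha, ha'⟩
      exact (oliver_mem_Z2_iff p hS A hA hna x hx hxA a ha).2 ha'
  have hkr := card_ker_inf_range h hx hxA
  rw [hcard] at hkr
  have hk := card_psi_ker h hx hxA
  refine ⟨hZ2A, ?_, ?_, ?_, ?_⟩
  · have e1 : ((S ⊓ Subgroup.centralizer (S : Set Ω)) ⊔ ((commutator ↥S).map S.subtype)).subgroupOf A
        = (((h.psi x hx).range).map (h.psi x hx)).comap (h.psi x hx) := by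
      rw [Subgroup.comap_map_eq, Subgroup.subgroupOf_sup h.center_le (commutator_map_le h),
        psi_ker h hx hxA, psi_range h hx hxA, sup_comm]
    have h1 := Subgroup.card_mul_index
      (((S ⊓ Subgroup.centralizer (S : Set Ω)) ⊔ ((commutator ↥S).map S.subtype)).subgroupOf A)
    have hW : ((h.psi x hx).range).map (h.psi x hx) ⊓ (h.psi x hx).range =
        ((h.psi x hx).range).map (h.psi x hx) := by
      refine inf_eq_left.2 ?_
      rintro _ ⟨a, -, rfl⟩
      exact ⟨a, rfl⟩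
    have h2 := card_eq_card_inf_ker_mul (h.psi x hx) (h.psi x hx).range
    rw [inf_comm, hkr] at h2
    have h3 := Subgroup.card_mul_index (h.psi x hx).ker
    rw [Subgroup.index_ker, h2] at h3
    rw [e1, card_comap_eq, hW, ← h3] at h1
    have hWpos : 0 < Nat.card ↥(((h.psi x hx).range).map (h.psi x hx)) := Nat.card_pos
    have hkpos : 0 < Nat.card (h.psi x hx).ker := Nat.card_pos
    rw [e1]
    have h4 : Nat.card (h.psi x hx).ker * Nat.card ↥(((h.psi x hx).range).map (h.psi x hx)) *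
        ((((h.psi x hx).range).map (h.psi x hx)).comap (h.psi x hx)).index =
        Nat.card (h.psi x hx).ker * Nat.card ↥(((h.psi x hx).range).map (h.psi x hx)) * p := by
      rw [h1]
      ring
    exact Nat.eq_of_mul_eq_mul_left (Nat.mul_pos hkpos hWpos) h4
  · have h1 := Subgroup.card_mul_index ((S ⊓ Subgroup.centralizer (S : Set Ω)).subgroupOf
      ((upperCentralSeries ↥S 2).map S.subtype))
    rw [card_subgroupOf_eq AbIdx.Z_le_Z2, hcZ2] at h1
    exact Nat.eq_of_mul_eq_mul_left hZpos h1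
  · intro m hm hm3 hle
    have h1 := Subgroup.card_mul_index ((S ⊓ Subgroup.centralizer (S : Set Ω)).subgroupOf S)
    rw [card_subgroupOf_eq inf_le_left, hm, card_S_eq h] at h1
    obtain ⟨m', rfl⟩ : ∃ m', m = m' + 3 := ⟨m - 3, by omega⟩
    have h2 : Nat.card A = Nat.card ↥(S ⊓ Subgroup.centralizer (S : Set Ω)) * p ^ (m' + 2) := by
      have : Nat.card ↥(S ⊓ Subgroup.centralizer (S : Set Ω)) * p ^ (m' + 2) * p = Nat.card A * p := by
        rw [← h1, pow_succ p (m' + 2), mul_assoc]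
      exact (Nat.eq_of_mul_eq_mul_right hp.pos this).symm
    obtain ⟨a, ha⟩ := exists_iterate_ne_one (h.psi x hx) (m' + 1) (by
      rw [hkr, hk, h2]
      exact Nat.mul_lt_mul_of_pos_left (Nat.pow_lt_pow_right hp.one_lt (by omega)) hZpos)
    apply ha
    rw [Function.iterate_succ_apply', ← MonoidHom.mem_ker, psi_ker h hx hxA,
      Subgroup.mem_subgroupOf]
    exact hle (iterate_mem_lcs h hx a (m' + 1))
  · intro hZD n hn hn3 hbot
    have hcZ : Nat.card ↥(S ⊓ Subgroup.centralizer (S : Set Ω)) = p := by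
      rw [← hcard, inf_eq_left.2 hZD]
    obtain ⟨n', rfl⟩ : ∃ n', n = n' + 3 := ⟨n - 3, by omega⟩
    have h2 : Nat.card A = p ^ (n' + 2) := by
      have : p ^ (n' + 2) * p = Nat.card A * p := by
        rw [← card_S_eq h, hn, pow_succ p (n' + 2)]
      exact (Nat.eq_of_mul_eq_mul_right hp.pos this).symm
    obtain ⟨a, ha⟩ := exists_iterate_ne_one (h.psi x hx) n' (by
      rw [hkr, hk, h2, hcZ, ← pow_succ']
      exact Nat.pow_lt_pow_right hp.one_lt (by omega))
    apply ha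
    have h3 := iterate_mem_lcs h hx a (n' + 1)
    have h4 : n' + 3 - 2 = n' + 1 := by omega
    rw [h4] at hbot
    rw [hbot, Subgroup.mem_bot] at h3
    exact Subtype.ext h3

end Cfsg.Agent.Lib.Helper89
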