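import Cfsg.Agent.Lib.Helper89.UnipotentConj
import Cfsg.Agent.Lib.Helper89.Alperin
import Cfsg.Prelude.Def_PLocal
import Cfsg.Agent.Lib.Helper87.Alperin
import Cfsg.Agent.Lib.Helper87.StronglyClosed

set_option autoImplicit false

namespace Cfsg.Agent.Lib.Helper89

open Cfsg Cfsg.FusionSystem Cfsg.Agent.Lib.Helper87

variable {Ω : Type*} [Group Ω] {S : Subgroup Ω}

/-- Let `R` be fully automized and receptive, `w ∈ R` centralized by `N_S(R)`, `φ ∈ Aut_F(R)` and
`s ∈ N_S(R)` centralizing `φ w`.  Then some morphism defined on a subgroup containing `R` and `s`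
maps `φ w` back to `w`. -/
theorem exists_extension_moving_back [Finite S] {p : ℕ} [Fact p.Prime] (_hS : IsPGroup p S)
    {F : FusionSystem S} {R : Subgroup Ω} (hRa : F.IsFullyAutomized p R) (hRr : F.IsReceptive R)
    {w : Ω} (hw : w ∈ R) (hwc : ∀ g ∈ normalizerIn S R, g * w * g⁻¹ = w) {φ : MulAut R}
    (hφ : φ ∈ F.autGroup R) {s : Ω} (hs : s ∈ normalizerIn S R)
    (hsy : s * (φ ⟨w, hw⟩ : Ω) * s⁻¹ = φ ⟨w, hw⟩) :
    ∃ (M : Subgroup Ω) (f' : Ω → Ω), Mor F M f' ∧ R ≤ M ∧ s ∈ M ∧ f' (φ ⟨w, hw⟩ : Ω) = w := by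
  have : Finite R := finite_of_le hRa.1
  have hsyl := (fullyAutomized_iff F p hRa.1).1 hRa
  set T := autInducedBy S R with hT
  set G := F.autGroup R with hG
  set w' : R := ⟨w, hw⟩ with hw'
  set H' : Subgroup (MulAut R) := G ⊓ MulAction.stabilizer (MulAut R) w' with hH'
  have hTH : T ≤ H' := by
    intro t ht
    refine Subgroup.mem_inf.2 ⟨hsyl.1 ht, ?_⟩
    obtain ⟨g, hg, e⟩ := (mem_autInducedBy_iff S R t).1 ht
    rw [MulAction.mem_stabilizer_iff, MulAut.smul_def]
    apply Subtype.ext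
    rw [e]
    exact hwc g ⟨hg, mem_normalizer_of_induces e⟩
  have hsyl' : IsSylIn p T H' := hsyl.mono hTH inf_le_left
  set cs : MulAut R := ((conjToAut S R ⟨s, hs⟩ : autInducedBy S R) : MulAut R) with hcs
  have hcsT : cs ∈ T := (conjToAut S R ⟨s, hs⟩).2
  have hcsa : ∀ x : R, ((cs x : R) : Ω) = s * x * s⁻¹ := fun x => rfl
  set c' : MulAut R := φ⁻¹ * cs * φ with hc'
  have hc'H : c' ∈ H' := by
    refine Subgroup.mem_inf.2 ⟨G.mul_mem (G.mul_mem (G.inv_mem hφ) (hsyl.1 hcsT)) hφ, ?_⟩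
    rw [MulAction.mem_stabilizer_iff, MulAut.smul_def, hc', MulAut.mul_apply,
      MulAut.mul_apply]
    have : cs (φ w') = φ w' := Subtype.ext (by rw [hcsa]; exact hsy)
    rw [this, MulAut.inv_apply_self]
  have hLp : IsPGroup p (Subgroup.zpowers c') := by
    have h1 : IsPGroup p (Subgroup.zpowers cs) :=
      hsyl.2.1.to_le (by rw [Subgroup.zpowers_le]; exact hcsT)
    have h2 : Subgroup.zpowers c' = (Subgroup.zpowers cs).map (MulAut.conj φ⁻¹).toMonoidHom := by
      rw [MonoidHom.map_zpowers]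
      congr 1
    rw [h2]
    exact h1.map _
  obtain ⟨g, hg, hgc⟩ := hsyl'.exists_conj (L := Subgroup.zpowers c')
    (by rw [Subgroup.zpowers_le]; exact hc'H) hLp
  have hgc' := hgc c' (Subgroup.mem_zpowers c')
  set μ : MulAut R := g * φ⁻¹ with hμ
  have hμG : μ ∈ G := G.mul_mem hg.1 (G.inv_mem hφ)
  have hμcs : μ * cs * μ⁻¹ ∈ T := by
    have : μ * cs * μ⁻¹ = g * c' * g⁻¹ := by rw [hμ, hc']; group
    rw [this]
    exact hgc'
  have hμw : μ (φ w') = w' := by
    rw [hμ, MulAut.mul_apply, MulAut.inv_apply_self]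
    have := (Subgroup.mem_inf.1 hg).2
    rwa [MulAction.mem_stabilizer_iff, MulAut.smul_def] at this
  set K' : Subgroup (MulAut R) := T.comap (MulAut.conj μ).toMonoidHom with hK'
  have hK'mem : ∀ κ, κ ∈ K' ↔ μ * κ * μ⁻¹ ∈ T := fun κ => Iff.rfl
  have hiso := iso_autFun ((mem_autGroup_iff F hRa.1 μ).1 hμG)
  obtain ⟨f', hf', hag⟩ := receptive_extend hRr hiso (NK S R K')
    ((NK_le_normalizerIn S R K').trans inf_le_left)
    ((NK_le_normalizerIn S R K').trans inf_le_right) (fun n hn => by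
      obtain ⟨hnS, t, ht, e⟩ := hn
      obtain ⟨k, hk, hk'⟩ := (mem_autInducedBy_iff S R _).1 ((hK'mem t).1 ht)
      refine ⟨k, hk, fun x hx => ?_⟩
      have h1 := hk' (μ ⟨x, hx⟩)
      rw [autFun_apply μ hx, ← h1, ← e ⟨x, hx⟩, autFun_coe]
      congr 1
      show μ (t ⟨x, hx⟩) = μ (t (μ⁻¹ (μ ⟨x, hx⟩)))
      rw [MulAut.inv_apply_self])
  refine ⟨R ⊔ NK S R K', f', hf', le_sup_left, ?_, ?_⟩
  · exact (le_sup_right : NK S R K' ≤ R ⊔ NK S R K') ⟨hs.1, cs, (hK'mem cs).2 hμcs, hcsa⟩
  · rw [hag _ (φ w').2, autFun_coe, hμw]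

/-- Elements of `℧ⁿ(Z(S))`. -/
theorem mem_powerClosure_center (p n : ℕ) (S : Subgroup Ω) (w : Ω) :
    w ∈ powerClosure p n (S ⊓ Subgroup.centralizer (S : Set Ω)) ↔
      ∃ z ∈ S ⊓ Subgroup.centralizer (S : Set Ω), w = z ^ (p ^ n) := by
  constructor
  · intro h
    induction h using Subgroup.closure_induction with
    | mem a ha => exact ha
    | one => exact ⟨1, Subgroup.one_mem _, by simp⟩
    | mul a b _ _ ha hb =>
      obtain ⟨x, hx, rfl⟩ := ha
      obtain ⟨y, hy, rfl⟩ := hb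
      refine ⟨x * y, Subgroup.mul_mem _ hx hy, ?_⟩
      have : Commute x y := (Subgroup.mem_centralizer_iff.1 hx.2 y hy.1).symm
      exact (this.mul_pow _).symm
    | inv a _ ha =>
      obtain ⟨x, hx, rfl⟩ := ha
      exact ⟨x⁻¹, Subgroup.inv_mem _ hx, by simp⟩
  · rintro ⟨z, hz, rfl⟩
    exact Subgroup.subset_closure ⟨z, hz, rfl⟩

theorem powerClosure_center_le (p n : ℕ) (S : Subgroup Ω) :
    powerClosure p n (S ⊓ Subgroup.centralizer (S : Set Ω)) ≤
      S ⊓ Subgroup.centralizer (S : Set Ω) := by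
  intro w hw
  obtain ⟨z, hz, rfl⟩ := (mem_powerClosure_center p n S w).1 hw
  exact Subgroup.pow_mem _ hz _

/-- There is an element of `N ∖ R` whose `p`-th power lies in `R`. -/
theorem exists_pow_mem_not_mem {p : ℕ} {N R : Subgroup Ω} (hN : IsPGroup p N) {g : Ω}
    (hg : g ∈ N) (hgR : g ∉ R) : ∃ s ∈ N, s ∉ R ∧ s ^ p ∈ R := by
  classical
  obtain ⟨k, hk⟩ := hN ⟨g, hg⟩
  have hk' : g ^ (p ^ k) ∈ R := by
    have := congrArg Subtype.val hk
    simp only [Subgroup.coe_pow, Subgroup.coe_one] at this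
    rw [this]
    exact R.one_mem
  have hex : ∃ k, g ^ (p ^ k) ∈ R := ⟨k, hk'⟩
  have h0 : Nat.find hex ≠ 0 := by
    intro h0
    have := Nat.find_spec hex
    rw [h0] at this
    simp at this
    exact hgR this
  obtain ⟨j, hj⟩ := Nat.exists_eq_succ_of_ne_zero h0
  refine ⟨g ^ (p ^ j), N.pow_mem hg _, Nat.find_min hex (by omega), ?_⟩
  have := Nat.find_spec hex
  rw [hj, Nat.succ_eq_add_one, pow_succ, pow_mul] at this
  exact this

theorem powerClosure_center_stronglyClosed [Finite S] {p : ℕ} [Fact p.Prime] (hS : IsPGroup p S)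
    (F : FusionSystem S) (hF : F.IsSaturated p) (n : ℕ)
    (hcl : Subgroup.lowerCentralSeries S (n * (p - 1) + 1) = ⊥) :
    F.StronglyClosed (powerClosure p n (S ⊓ Subgroup.centralizer (S : Set Ω))) := by
  set Z : Subgroup Ω := S ⊓ Subgroup.centralizer (S : Set Ω) with hZ
  set W : Subgroup Ω := powerClosure p n Z with hW
  have hWZ : W ≤ Z := powerClosure_center_le p n S
  have hmem : ∀ w, w ∈ W ↔ ∃ z ∈ Z, w = z ^ (p ^ n) := mem_powerClosure_center p n S
  have key := alperin_induction hS F hF (fun P f => ∀ x ∈ P, (x ∈ W ↔ f x ∈ W))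
    (fun {P f g} h e x hx => by rw [← e x hx]; exact h x hx)
    (fun {P R f} _ h hR x hx => h x (hR hx))
    (fun {P Q f g} _ _ hPQ h1 h2 x hx => (h1 x hx).trans (h2 _ (hPQ x hx)))
    (fun {P Q f g} hf _ hgf h y hy => by
      obtain ⟨x, hx, rfl⟩ := hf.surj hy
      rw [hgf x hx]
      exact (h x hx).symm)
    (fun R hRa hRr IH f hf => by
      have hRS : R ≤ S := hRa.1
      have main : ∀ α ∈ F.autGroup R, ∀ x : R, (x : Ω) ∈ W → ((α x : R) : Ω) ∈ W := by
        intro α hα x hx
        have hαm := (mem_autGroup_iff F hRS α).1 hα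
        by_cases hC : centralizerIn S R ≤ R
        · have hZR : Z ≤ R := by
            refine le_trans ?_ hC
            intro z hz
            exact ⟨hz.1, Subgroup.centralizer_le (by exact_mod_cast hRS) hz.2⟩
          obtain ⟨z, hz, hxz⟩ := (hmem x).1 hx
          have hb : ((α ⟨z, hZR hz⟩ : R) : Ω) ∈ R ⊓ Subgroup.centralizer (R : Set Ω) := by
            refine Subgroup.mem_inf.2 ⟨(α _).2, ?_⟩
            rw [Subgroup.mem_centralizer_iff]
            intro r hr
            have h1 : (⟨z, hZR hz⟩ : R) * α.symm ⟨r, hr⟩ = α.symm ⟨r, hr⟩ * ⟨z, hZR hz⟩ := by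
              apply Subtype.ext
              exact (Subgroup.mem_centralizer_iff.1 hz.2 _ (hRS (α.symm ⟨r, hr⟩).2)).symm
            have h2 := congrArg (fun t => ((α t : R) : Ω)) h1
            simp only [map_mul, MulEquiv.apply_symm_apply, Subgroup.coe_mul] at h2
            exact h2.symm
          have hy : ((α x : R) : Ω) = ((α ⟨z, hZR hz⟩ : R) : Ω) ^ (p ^ n) := by
            have : x = (⟨z, hZR hz⟩ : R) ^ (p ^ n) := Subtype.ext hxz
            rw [this, map_pow]
            rfl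
          by_cases hRS' : R = S
          · rw [hy, hmem]
            refine ⟨_, ?_, rfl⟩
            have hZR' : R ⊓ Subgroup.centralizer (R : Set Ω) = Z := by rw [hRS']
            rw [← hZR']
            exact hb
          · have hlt : R < S := lt_of_le_of_ne hRS hRS'
            obtain ⟨g, hg, hgR⟩ := exists_mem_normalizerIn_not_mem hS le_rfl hlt
            obtain ⟨s, hs, hsR, hsp⟩ := exists_pow_mem_not_mem
              (hS.to_le (normalizerIn_le S R)) hg hgR
            have hfix := conj_fixes_pow p n (Fact.out : p.Prime) hRS hcl hs.1 hs.2 hsp hb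
            rw [← hy] at hfix
            obtain ⟨M, f', hf', hRM, hsM, e⟩ := exists_extension_moving_back hS hRa hRr x.2
              (fun g hg => by
                have := Subgroup.mem_centralizer_iff.1 (hWZ hx).2 g hg.1
                rw [this]; group) hα hs hfix
            have hcard : Nat.card R < Nat.card M := by
              have : Finite M := finite_of_le hf'.le
              exact card_lt_of_lt (lt_of_le_of_ne hRM (fun h => hsR (h ▸ hsM)))
            have h3 := IH M f' hcard hf' _ (hRM (α x).2)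
            rw [h3, e]
            exact hx
        · obtain ⟨f', hf', hag, -⟩ := receptive_extend_centralizer hRr (iso_autFun hαm)
          have hcard : Nat.card R < Nat.card (R ⊔ centralizerIn S R : Subgroup Ω) := by
            have : Finite (R ⊔ centralizerIn S R : Subgroup Ω) := finite_of_le hf'.le
            exact card_lt_of_lt (lt_of_le_of_ne le_sup_left
              (fun h => hC (le_sup_right.trans (le_of_eq h.symm))))
          have h3 := IH _ f' hcard hf' x ((le_sup_left : R ≤ _) x.2)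
          rw [hag x x.2, autFun_coe] at h3
          exact h3.1 hx
      obtain ⟨α, hα, e⟩ := hf.exists_aut
      intro x hx
      rw [← e ⟨x, hx⟩]
      refine ⟨fun h => main α hα ⟨x, hx⟩ h, fun h => ?_⟩
      have := main α⁻¹ (Subgroup.inv_mem _ hα) (α ⟨x, hx⟩) h
      rwa [MulAut.inv_apply_self] at this)
  rw [stronglyClosed_iff]
  exact ⟨hWZ.trans inf_le_left, fun R f hf x hx hxW => (key R f hf x hx).1 hxW⟩

end Cfsg.Agent.Lib.Helper89
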