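import Mathlib

set_option autoImplicit false

namespace Cfsg.Agent.Lib.Helper89

open Subgroup
open scoped commutatorElement

/-- If `⁅x, y⁆` is central then `⁅x ^ e, y⁆ = ⁅x, y⁆ ^ e`. -/
theorem commutator_pow_left_of_central {G : Type*} [Group G] {x y : G}
    (h : ⁅x, y⁆ ∈ center G) (e : ℕ) : ⁅x ^ e, y⁆ = ⁅x, y⁆ ^ e := by
  induction e with
  | zero => simp
  | succ e ih =>
    have h1 : ⁅x ^ (e + 1), y⁆ = x ^ e * ⁅x, y⁆ * (x ^ e)⁻¹ * ⁅x ^ e, y⁆ := by
      simp only [commutatorElement_def, pow_succ]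
      group
    have h2 : x ^ e * ⁅x, y⁆ = ⁅x, y⁆ * x ^ e := (mem_center_iff.1 h (x ^ e))
    rw [h1, h2, ih, pow_succ']
    group

/-- The exponent of `Z(G / Z(G))` divides that of `Z(G)`. -/
theorem pow_eq_one_center_quotient {G : Type*} [Group G] {e : ℕ}
    (h : ∀ z ∈ center G, z ^ e = 1) : ∀ z ∈ center (G ⧸ center G), z ^ e = 1 := by
  intro z hz
  obtain ⟨x, rfl⟩ := QuotientGroup.mk_surjective z
  rw [← QuotientGroup.mk_pow, QuotientGroup.eq_one_iff]
  have hc : ∀ y : G, ⁅x, y⁆ ∈ center G := by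
    intro y
    rw [← QuotientGroup.eq_one_iff, commutatorElement_def]
    have := mem_center_iff.1 hz (y : G ⧸ center G)
    simp only [QuotientGroup.mk_mul, QuotientGroup.mk_inv]
    rw [← this]
    group
  rw [mem_center_iff]
  intro y
  have h1 := commutator_pow_left_of_central (hc y) e
  rw [h _ (hc y), commutatorElement_def, mul_inv_eq_one, mul_inv_eq_iff_eq_mul] at h1
  exact h1.symm

/-- A nilpotent group of class at most `c` whose centre has exponent dividing `e` has exponent
dividing `e ^ c`. -/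
theorem pow_eq_one_of_upperCentralSeries {e : ℕ} (c : ℕ) : ∀ {G : Type*} [Group G],
    Subgroup.upperCentralSeries G c = ⊤ → (∀ z ∈ center G, z ^ e = 1) → ∀ x : G, x ^ (e ^ c) = 1 := by
  induction c with
  | zero =>
    intro G _ h _ x
    have : x ∈ Subgroup.upperCentralSeries G 0 := h ▸ mem_top x
    rw [Subgroup.upperCentralSeries_zero, mem_bot] at this
    rw [this, one_pow]
  | succ c ih =>
    intro G _ h hz x
    have h1 : Subgroup.upperCentralSeries (G ⧸ center G) c = ⊤ := by
      apply comap_injective (f := QuotientGroup.mk' (center G)) Quot.mk_surjective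
      rw [Subgroup.comap_upperCentralSeries_quotient_center, comap_top]
      exact h
    have h2 := ih h1 (pow_eq_one_center_quotient hz) (x : G ⧸ center G)
    rw [← QuotientGroup.mk_pow, QuotientGroup.eq_one_iff] at h2
    rw [pow_succ, pow_mul]
    exact hz _ h2

/-- Version for a subgroup of an ambient group. -/
theorem pow_eq_one_of_lowerCentralSeries {Ω : Type*} [Group Ω] {S : Subgroup Ω} {e c : ℕ}
    (hcl : Subgroup.lowerCentralSeries S c = ⊥)
    (hz : ∀ z ∈ S ⊓ centralizer (S : Set Ω), z ^ e = 1) : ∀ x ∈ S, x ^ (e ^ c) = 1 := by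
  have h1 : Subgroup.lowerCentralSeries (G := S) ⊤ c = ⊥ := by
    rwa [← map_subtype_inj, Subgroup.map_bot, top_subtype_lowerCentralSeries]
  rw [Subgroup.lowerCentralSeries_eq_bot_iff_upperCentralSeries_eq_top] at h1
  intro x hx
  have h2 := pow_eq_one_of_upperCentralSeries (e := e) c h1 (fun z hzc => by
    apply Subtype.ext
    rw [Subgroup.coe_pow, Subgroup.coe_one]
    refine hz _ (mem_inf.2 ⟨z.2, ?_⟩)
    rw [mem_centralizer_iff]
    intro s hs
    exact congrArg Subtype.val (mem_center_iff.1 hzc ⟨s, hs⟩)) ⟨x, hx⟩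
  exact congrArg Subtype.val h2

end Cfsg.Agent.Lib.Helper89
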