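import Cfsg.Agent.Lib.Helper87.Alperin
import Cfsg.Agent.Lib.Helper89.Lifting
import Cfsg.Agent.Lib.Helper89.FusionAux
import Cfsg.Agent.Lib.Helper89.GenExtraChain
import Cfsg.Agent.Lib.Helper89.GenExtraSL2

set_option autoImplicit false
set_option linter.unusedSectionVars false

namespace Cfsg.Agent.Lib.Helper89

open Cfsg Cfsg.FusionSystem Cfsg.Agent.Lib.Helper87

variable {Ω : Type*} [Group Ω] {S : Subgroup Ω}

/-- The local situation: `P` strongly closed with `[P,P] ≤ ⟨z⟩`, `℧¹(P) ≤ ⟨z⟩`, `z` of order `p`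
central in `S`, and `U` a fully automized, receptive, centric, radical subgroup. -/
structure GELocal (p : ℕ) (F : FusionSystem S) (P U : Subgroup Ω) (z : Ω) : Prop where
  hP : F.StronglyClosed P
  hfa : F.IsFullyAutomized p U
  hrec : F.IsReceptive U
  hc : F.IsCentric U
  hr : F.IsRadical p U
  hzP : z ∈ P
  hz1 : z ≠ 1
  hzp : z ^ p = 1
  hzc : ∀ s ∈ S, s * z = z * s
  hcomm : ∀ x ∈ P, ∀ y ∈ P, x * y * x⁻¹ * y⁻¹ ∈ Subgroup.zpowers z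
  hpow : ∀ x ∈ P, x ^ p ∈ Subgroup.zpowers z

namespace GELocal

variable {p : ℕ} [Fact p.Prime] [Finite S] {F : FusionSystem S} {P U : Subgroup Ω} {z : Ω}

theorem hU (D : GELocal p F P U z) : U ≤ S := D.hc.1

theorem hzU (D : GELocal p F P U z) : z ∈ U :=
  D.hc.2 U (isConj_refl F D.hU)
    ((mem_centralizerIn_iff S U z).2 ⟨D.hP.1 D.hzP, fun x hx => D.hzc x (D.hU hx)⟩)

theorem conjP (D : GELocal p F P U z) {s x : Ω} (hs : s ∈ S) (hx : x ∈ P) : s * x * s⁻¹ ∈ P :=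
  (Subgroup.mem_normalizer_iff.1 (stronglyClosed_le_normalizer D.hP hs) x).1 hx

theorem aut_mem (D : GELocal p F P U z) {α : MulAut U} (hα : α ∈ F.autGroup U) {x : U}
    (hx : (x : Ω) ∈ P) : ((α x : U) : Ω) ∈ P := by
  have hmor : Mor F U (autFun α) := (mem_autGroup_iff F D.hU α).1 hα
  rw [← autFun_coe]
  exact StronglyClosed.mor_mem D.hP hmor x.2 hx

theorem aut_mem' (D : GELocal p F P U z) {α : MulAut U} (hα : α ∈ F.autGroup U) :
    ∀ x ∈ P.subgroupOf U, α x ∈ P.subgroupOf U := fun _ hx =>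
  Subgroup.mem_subgroupOf.2 (D.aut_mem hα (Subgroup.mem_subgroupOf.1 hx))

theorem mem_pCore_of_stab (hS : IsPGroup p S) (hU : U ≤ S) (X1 X2 X3 : Subgroup U)
    (i1 : ∀ α ∈ F.autGroup U, ∀ x ∈ X1, α x ∈ X1) (i2 : ∀ α ∈ F.autGroup U, ∀ x ∈ X2, α x ∈ X2)
    (i3 : ∀ α ∈ F.autGroup U, ∀ x ∈ X3, α x ∈ X3) (κ : MulAut U) (hκ : κ ∈ F.autGroup U)
    (s1 : ∀ x ∈ X1, κ x = x) (s2 : ∀ x ∈ X2, x⁻¹ * κ x ∈ X1) (s3 : ∀ x ∈ X3, x⁻¹ * κ x ∈ X2)
    (s4 : ∀ x, x⁻¹ * κ x ∈ X3) :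
    κ ∈ (pCore p (F.autGroup U)).map (F.autGroup U).subtype := by
  have : Finite U := finite_of_le hU
  exact mem_pCore_of_stabilizes_chain (hS.to_le hU) (F.autGroup U) 4 (chain4 X1 X2 X3) rfl rfl
    (fun i α hα => chain4_inv α (i1 α hα) (i2 α hα) (i3 α hα) i) κ hκ (chain4_stab κ s1 s2 s3 s4)

/-- An automorphism in `Aut_F(U)` trivial on `U ∩ P` and on `U / U ∩ P` lies in `O_p(Aut_F(U))`. -/
theorem mem_pCore_of_trivial (hS : IsPGroup p S) (D : GELocal p F P U z) (κ : MulAut U)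
    (hκ : κ ∈ F.autGroup U) (h1 : ∀ x ∈ P.subgroupOf U, κ x = x)
    (h2 : ∀ x, x⁻¹ * κ x ∈ P.subgroupOf U) :
    κ ∈ (pCore p (F.autGroup U)).map (F.autGroup U).subtype := by
  have hbot : ∀ α : MulAut U, ∀ x ∈ (⊥ : Subgroup U), α x ∈ (⊥ : Subgroup U) := by
    intro α x hx
    rw [Subgroup.mem_bot] at hx ⊢
    rw [hx, map_one]
  refine mem_pCore_of_stab hS D.hU ⊥ ⊥ (P.subgroupOf U) (fun α _ => hbot α) (fun α _ => hbot α)
    (fun α hα => D.aut_mem' hα) κ hκ ?_ ?_ ?_ h2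
  · intro x hx
    rw [Subgroup.mem_bot] at hx
    rw [hx, map_one]
  · intro x hx
    rw [Subgroup.mem_bot] at hx ⊢
    rw [hx, map_one, inv_one, one_mul]
  · intro x hx
    rw [h1 x hx, inv_mul_cancel]
    exact Subgroup.one_mem _

/-- facts on the automorphism induced by `n ∈ N_P(U)` -/
theorem conj_quot (D : GELocal p F P U z) {n : Ω} (hnP : n ∈ P) {β : MulAut U}
    (e : ∀ x : U, ((β x : U) : Ω) = n * x * n⁻¹) (x : U) : x⁻¹ * β x ∈ P.subgroupOf U := by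
  rw [Subgroup.mem_subgroupOf]
  show (x : Ω)⁻¹ * ((β x : U) : Ω) ∈ P
  rw [e]
  have h1 : (x : Ω)⁻¹ * n * (x : Ω)⁻¹⁻¹ ∈ P := D.conjP (S.inv_mem (D.hU x.2)) hnP
  have h2 : (x : Ω)⁻¹ * (n * x * n⁻¹) = (x : Ω)⁻¹ * n * (x : Ω)⁻¹⁻¹ * n⁻¹ := by group
  rw [h2]
  exact P.mul_mem h1 (P.inv_mem hnP)

theorem conj_U0 (D : GELocal p F P U z) {n : Ω} (hnP : n ∈ P) {β : MulAut U}
    (e : ∀ x : U, ((β x : U) : Ω) = n * x * n⁻¹) (x : U) (hx : x ∈ P.subgroupOf U) :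
    ∃ k : ℤ, β x = x * (⟨z, D.hzU⟩ : U) ^ k := by
  obtain ⟨k, hk⟩ := D.hcomm _ (P.inv_mem (Subgroup.mem_subgroupOf.1 hx)) n hnP
  refine ⟨k, Subtype.ext ?_⟩
  have hk' : z ^ k = (x : Ω)⁻¹ * n * (x : Ω)⁻¹⁻¹ * n⁻¹ := hk
  rw [e, Subgroup.coe_mul, Subgroup.coe_zpow]
  show n * (x : Ω) * n⁻¹ = (x : Ω) * z ^ k
  rw [hk']
  group

theorem conj_z (D : GELocal p F P U z) {n : Ω} (hnS : n ∈ S) {β : MulAut U}
    (e : ∀ x : U, ((β x : U) : Ω) = n * x * n⁻¹) : β ⟨z, D.hzU⟩ = ⟨z, D.hzU⟩ := by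
  apply Subtype.ext
  rw [e]
  show n * z * n⁻¹ = z
  rw [D.hzc n hnS, mul_inv_cancel_right]

/-- An element of `N_P(U)` centralizing `U ∩ P` lies in `U`. -/
theorem mem_of_centralizes (hS : IsPGroup p S) (D : GELocal p F P U z) {g : Ω} (hgP : g ∈ P)
    (hgN : g ∈ normalizerIn S U) (hcen : ∀ x ∈ U, x ∈ P → g * x * g⁻¹ = x) : g ∈ U := by
  obtain ⟨β, hβ, e⟩ := exists_conj_aut F D.hU hgN
  refine mem_of_conj_mem_pCore D.hc D.hr hgN.1 β ?_ e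
  refine D.mem_pCore_of_trivial hS β hβ (fun x hx => ?_) (D.conj_quot hgP e)
  apply Subtype.ext
  rw [e]
  exact hcen x x.2 (Subgroup.mem_subgroupOf.1 hx)

/-- Extension of an automorphism `δ` of `U` to an overgroup containing `n`, when `δ c_n δ⁻¹` is induced
by `S`. -/
theorem exists_extension (D : GELocal p F P U z) {δ β : MulAut U} (hδ : δ ∈ F.autGroup U) {n : Ω}
    (hn : n ∈ S) (e : ∀ x : U, ((β x : U) : Ω) = n * x * n⁻¹)
    (h : δ * β * δ⁻¹ ∈ autInducedBy S U) :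
    ∃ (N : Subgroup Ω) (f' : Ω → Ω), n ∈ N ∧ U ≤ N ∧ Mor F N f' ∧
      ∀ x : U, f' x = ((δ x : U) : Ω) := by
  let K : Subgroup (MulAut U) := (autInducedBy S U).comap (MulAut.conj δ).toMonoidHom
  have hK : ∀ u, u ∈ K ↔ δ * u * δ⁻¹ ∈ autInducedBy S U := fun u => Iff.rfl
  obtain ⟨f', hf', hfe⟩ := Helper89.extend_of_normalizes D.hrec K δ hδ
    (fun u hu => (hK u).1 hu.2) (NK S U K) (NK_le_normalizerIn S U K) (by
      rintro g ⟨-, κ, hκ, eκ⟩ u hu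
      have : u = κ := by
        ext x
        rw [hu, eκ]
      rw [this]
      exact hκ)
  refine ⟨U ⊔ NK S U K, f', Subgroup.mem_sup_right ⟨hn, β, (hK β).2 h, e⟩, le_sup_left, hf',
    fun x => ?_⟩
  rw [hfe x x.2, autFun_coe]

/-- If `n ∈ N_P(U) ∖ U` and `δ c_n δ⁻¹` is induced by `S`, then `δ` maps `z` into `⟨z⟩`. -/
theorem aut_z_mem (hS : IsPGroup p S) (D : GELocal p F P U z) {δ β : MulAut U}
    (hδ : δ ∈ F.autGroup U) {n : Ω} (hnP : n ∈ P) (hnN : n ∈ normalizerIn S U) (hnU : n ∉ U)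
    (e : ∀ x : U, ((β x : U) : Ω) = n * x * n⁻¹) (h : δ * β * δ⁻¹ ∈ autInducedBy S U) :
    ((δ ⟨z, D.hzU⟩ : U) : Ω) ∈ Subgroup.zpowers z := by
  obtain ⟨v, hvU, hvP, hv⟩ : ∃ v ∈ U, v ∈ P ∧ n * v * n⁻¹ ≠ v := by
    by_contra hcon
    push Not at hcon
    exact hnU (D.mem_of_centralizes hS hnP hnN hcon)
  have hc : n * v * n⁻¹ * v⁻¹ ∈ Subgroup.zpowers z := D.hcomm n hnP v hvP
  have hc1 : n * v * n⁻¹ * v⁻¹ ≠ 1 := fun h1 => hv (mul_inv_eq_one.1 h1)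
  obtain ⟨k, hk⟩ := exists_pow_eq_of_ne_one D.hzp hc hc1
  obtain ⟨N, f', hnN', hUN, hf', hfe⟩ := D.exists_extension hδ hnN.1 e h
  have hvN : v ∈ N := hUN hvU
  have h1 : f' (n * v * n⁻¹ * v⁻¹) = f' n * f' v * (f' n)⁻¹ * (f' v)⁻¹ := by
    rw [hf'.map_mul (N.mul_mem (N.mul_mem hnN' hvN) (N.inv_mem hnN')) (N.inv_mem hvN),
      hf'.map_mul (N.mul_mem hnN' hvN) (N.inv_mem hnN'), hf'.map_mul hnN' hvN,
      hf'.map_inv hnN', hf'.map_inv hvN]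
  have h2 : f' (n * v * n⁻¹ * v⁻¹) ∈ Subgroup.zpowers z := by
    rw [h1]
    exact D.hcomm _ (StronglyClosed.mor_mem D.hP hf' hnN' hnP) _
      (StronglyClosed.mor_mem D.hP hf' hvN hvP)
  have h3 := hfe ⟨z, D.hzU⟩
  rw [← h3]
  have h4 : f' z = f' (n * v * n⁻¹ * v⁻¹) ^ k := by
    rw [← hf'.map_pow (N.mul_mem (N.mul_mem (N.mul_mem hnN' hvN) (N.inv_mem hnN'))
      (N.inv_mem hvN)), hk]
  show f' z ∈ _
  rw [h4]
  exact Subgroup.pow_mem _ h2 k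

/-- Two elements of `Aut_F(U)` stabilizing a common chain are simultaneously conjugate into
`Aut_S(U)`. -/
theorem exists_conj_pair (hS : IsPGroup p S) (D : GELocal p F P U z) (X1 X2 X3 : Subgroup U)
    {b b1 : MulAut U} (hb : b ∈ F.autGroup U) (hb1 : b1 ∈ F.autGroup U)
    (Hb : StabChain (chain4 X1 X2 X3) 4 b) (Hb1 : StabChain (chain4 X1 X2 X3) 4 b1) :
    ∃ γ ∈ F.autGroup U, γ * b * γ⁻¹ ∈ autInducedBy S U ∧ γ * b1 * γ⁻¹ ∈ autInducedBy S U := by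
  have : Finite U := finite_of_le D.hU
  have hLp : IsPGroup p (Subgroup.closure ({b, b1} : Set (MulAut U))) := by
    refine isPGroup_closure_of_stabChain (hS.to_le D.hU) (chain4 X1 X2 X3) 4 rfl rfl _ ?_
    rintro a (rfl | ha)
    · exact Hb
    · rw [Set.mem_singleton_iff] at ha
      rw [ha]
      exact Hb1
  have hL : Subgroup.closure ({b, b1} : Set (MulAut U)) ≤ F.autGroup U := by
    rw [Subgroup.closure_le]
    rintro a (rfl | ha)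
    · exact hb
    · rw [Set.mem_singleton_iff] at ha
      rw [ha]
      exact hb1
  obtain ⟨γ, hγ, hconj⟩ := (isSylIn_of_fullyAutomized D.hfa).exists_conj hL hLp
  exact ⟨γ, hγ, hconj b (Subgroup.subset_closure (by simp)),
    hconj b1 (Subgroup.subset_closure (by simp))⟩

/-- If `α ∈ Aut_F(U)` moves `z` out of `⟨z⟩`, no element of `N_P(U) ∖ U` centralizes `α z`. -/
theorem conj_ne (hS : IsPGroup p S) (D : GELocal p F P U z) {α : MulAut U}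
    (hα : α ∈ F.autGroup U) (hαz : ((α ⟨z, D.hzU⟩ : U) : Ω) ∉ Subgroup.zpowers z) {n : Ω}
    (hnP : n ∈ P) (hnN : n ∈ normalizerIn S U) (hnU : n ∉ U) :
    n * ((α ⟨z, D.hzU⟩ : U) : Ω) * n⁻¹ ≠ ((α ⟨z, D.hzU⟩ : U) : Ω) := by
  intro hfix
  obtain ⟨β, hβ, e⟩ := exists_conj_aut F D.hU hnN
  set zU : U := ⟨z, D.hzU⟩ with hzU
  set z1U : U := α zU with hz1U
  have hβz : β zU = zU := D.conj_z hnN.1 e
  have hβz1 : β z1U = z1U := by
    apply Subtype.ext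
    rw [e]
    exact hfix
  have hzU0 : zU ∈ P.subgroupOf U := Subgroup.mem_subgroupOf.2 D.hzP
  have hz1U0 : z1U ∈ P.subgroupOf U := D.aut_mem' hα _ hzU0
  have h12 : Subgroup.zpowers z1U ≤ Subgroup.zpowers zU ⊔ Subgroup.zpowers z1U := le_sup_right
  have h23 : Subgroup.zpowers zU ⊔ Subgroup.zpowers z1U ≤ P.subgroupOf U :=
    sup_le (Subgroup.zpowers_le.2 hzU0) (Subgroup.zpowers_le.2 hz1U0)
  have hfixβ : ∀ x ∈ Subgroup.zpowers zU ⊔ Subgroup.zpowers z1U, β x = x := by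
    have hle : Subgroup.zpowers zU ⊔ Subgroup.zpowers z1U ≤
        (β.toMonoidHom).eqLocus (MonoidHom.id U) :=
      sup_le (Subgroup.zpowers_le.2 hβz) (Subgroup.zpowers_le.2 hβz1)
    exact fun x hx => hle hx
  have Hb : StabChain (chain4 (Subgroup.zpowers z1U) (Subgroup.zpowers zU ⊔ Subgroup.zpowers z1U)
      (P.subgroupOf U)) 4 β := by
    refine stabChain4 h12 h23 β (fun x hx => hfixβ x (h12 hx)) (fun x hx => ?_) (fun x hx => ?_)
      (D.conj_quot hnP e)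
    · rw [hfixβ x hx, inv_mul_cancel]
      exact Subgroup.one_mem _
    · obtain ⟨k, hk⟩ := D.conj_U0 hnP e x hx
      rw [hk, inv_mul_cancel_left]
      exact Subgroup.mem_sup_left (Subgroup.zpow_mem _ (Subgroup.mem_zpowers _) k)
  have hαi : α⁻¹ ∈ F.autGroup U := Subgroup.inv_mem _ hα
  have hb1 : α * β * α⁻¹ ∈ F.autGroup U :=
    Subgroup.mul_mem _ (Subgroup.mul_mem _ hα hβ) hαi
  have happ : ∀ x, (α * β * α⁻¹) x = α (β (α⁻¹ x)) := fun x => rfl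
  have key : ∀ x ∈ P.subgroupOf U, x⁻¹ * (α * β * α⁻¹) x ∈ Subgroup.zpowers z1U := by
    intro x hx
    obtain ⟨k, hk⟩ := D.conj_U0 hnP e (α⁻¹ x) (D.aut_mem' hαi x hx)
    rw [happ, hk, map_mul, map_zpow, MulAut.apply_inv_self, inv_mul_cancel_left]
    exact Subgroup.zpow_mem _ (Subgroup.mem_zpowers _) k
  have Hb1 : StabChain (chain4 (Subgroup.zpowers z1U)
      (Subgroup.zpowers zU ⊔ Subgroup.zpowers z1U) (P.subgroupOf U)) 4 (α * β * α⁻¹) := by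
    refine stabChain4 h12 h23 _ ?_ (fun x hx => key x (h23 hx)) (fun x hx => h12 (key x hx))
      (fun x => ?_)
    · have hle : Subgroup.zpowers z1U ≤
          ((α * β * α⁻¹ : MulAut U).toMonoidHom).eqLocus (MonoidHom.id U) := by
        rw [Subgroup.zpowers_le]
        show (α * β * α⁻¹) z1U = z1U
        rw [happ, hz1U, MulAut.inv_apply_self, hβz]
      exact fun x hx => hle hx
    · have h1 := D.aut_mem' hα _ (D.conj_quot hnP e (α⁻¹ x))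
      rw [map_mul, map_inv, MulAut.apply_inv_self] at h1
      exact h1
  obtain ⟨γ, hγ, hγ1, hγ2⟩ := D.exists_conj_pair hS _ _ _ hβ hb1 Hb Hb1
  have h1 := D.aut_z_mem hS hγ hnP hnN hnU e hγ1
  have hγ2' : (γ * α) * β * (γ * α)⁻¹ ∈ autInducedBy S U := by
    have : (γ * α) * β * (γ * α)⁻¹ = γ * (α * β * α⁻¹) * γ⁻¹ := by group
    rw [this]
    exact hγ2
  have h2 := D.aut_z_mem hS (Subgroup.mul_mem _ hγ hα) hnP hnN hnU e hγ2'
  -- `γ z ∈ ⟨z⟩`, `γ (α z) ∈ ⟨z⟩`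
  have hγz1 : ((γ zU : U) : Ω) ≠ 1 := by
    intro h3
    have : γ zU = 1 := Subtype.ext h3
    rw [map_eq_one_iff γ γ.injective] at this
    exact D.hz1 (congrArg Subtype.val this)
  obtain ⟨k, hk⟩ := mem_zpowers_of_ne_one D.hzp h1 hγz1
  obtain ⟨l, hl⟩ := h2
  apply hαz
  have h4 : γ z1U = γ (zU ^ (k * l)) := by
    apply Subtype.ext
    have hl' : z ^ l = (((γ * α) zU : U) : Ω) := hl
    have hk' : ((γ zU : U) : Ω) ^ k = z := hk
    show (((γ * α) zU : U) : Ω) = _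
    rw [← hl', map_zpow, Subgroup.coe_zpow, zpow_mul, hk']
  have h5 : z1U = zU ^ (k * l) := γ.injective h4
  refine ⟨k * l, ?_⟩
  show z ^ (k * l) = ((z1U : U) : Ω)
  rw [h5, Subgroup.coe_zpow]

theorem aut_z_central (D : GELocal p F P U z) (α : MulAut U) (u : U) :
    u * α ⟨z, D.hzU⟩ = α ⟨z, D.hzU⟩ * u := by
  have h1 : ∀ v : U, v * (⟨z, D.hzU⟩ : U) = ⟨z, D.hzU⟩ * v :=
    fun v => Subtype.ext (D.hzc v (D.hU v.2))
  have h2 := congrArg α (h1 (α⁻¹ u))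
  rwa [map_mul, map_mul, MulAut.apply_inv_self] at h2

/-- `C_P(α z) ≤ U`. -/
theorem centralizer_le (hS : IsPGroup p S) (D : GELocal p F P U z) {α : MulAut U}
    (hα : α ∈ F.autGroup U) (hαz : ((α ⟨z, D.hzU⟩ : U) : Ω) ∉ Subgroup.zpowers z) {g : Ω}
    (hgP : g ∈ P) (hg : g * ((α ⟨z, D.hzU⟩ : U) : Ω) = ((α ⟨z, D.hzU⟩ : U) : Ω) * g) : g ∈ U := by
  set z1 : Ω := ((α ⟨z, D.hzU⟩ : U) : Ω) with hz1
  have hle : P ⊓ Subgroup.centralizer {z1} ≤ U := by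
    apply le_of_normalizer_inter_le hS D.hU (inf_le_left.trans D.hP.1)
    · apply le_normalizer_of_conj_mem
      intro u hu x hx
      obtain ⟨hxP, hxc⟩ := Subgroup.mem_inf.1 hx
      refine Subgroup.mem_inf.2 ⟨D.conjP (D.hU hu) hxP, ?_⟩
      rw [Subgroup.mem_centralizer_singleton_iff] at hxc ⊢
      have h1 : Commute u z1 := congrArg Subtype.val (D.aut_z_central α ⟨u, hu⟩)
      have h2 : Commute x z1 := hxc
      exact ((h1.mul_left h2).mul_left h1.inv_left).eq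
    · intro x hx hxN
      obtain ⟨hxP, hxc⟩ := Subgroup.mem_inf.1 hx
      rw [Subgroup.mem_centralizer_singleton_iff] at hxc
      by_contra hxU
      apply D.conj_ne hS hα hαz hxP ⟨D.hP.1 hxP, hxN⟩ hxU
      rw [← hz1, hxc, mul_inv_cancel_right]
  exact hle ⟨hgP, Subgroup.mem_centralizer_singleton_iff.2 hg⟩

/-- `U ∩ P` has exponent `p`. -/
theorem pow_eq_one (D : GELocal p F P U z) {α : MulAut U}
    (hα : α ∈ F.autGroup U) (hαz : ((α ⟨z, D.hzU⟩ : U) : Ω) ∉ Subgroup.zpowers z) {x : Ω}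
    (hxU : x ∈ U) (hxP : x ∈ P) : x ^ p = 1 := by
  by_contra hne
  obtain ⟨k, hk⟩ := exists_pow_eq_of_ne_one D.hzp (D.hpow x hxP) hne
  apply hαz
  have h1 : (⟨z, D.hzU⟩ : U) = ((⟨x, hxU⟩ : U) ^ k) ^ p := by
    apply Subtype.ext
    show z = (x ^ k) ^ p
    rw [← hk, ← pow_mul, ← pow_mul, mul_comm]
  rw [h1, map_pow, Subgroup.coe_pow]
  apply D.hpow
  apply D.aut_mem hα
  exact P.pow_mem hxP k

/-- `U ∩ P` is abelian. -/
theorem abelian (D : GELocal p F P U z) {α : MulAut U}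
    (hα : α ∈ F.autGroup U) (hαz : ((α ⟨z, D.hzU⟩ : U) : Ω) ∉ Subgroup.zpowers z) {x y : Ω}
    (hxU : x ∈ U) (hxP : x ∈ P) (hyU : y ∈ U) (hyP : y ∈ P) : x * y = y * x := by
  by_contra hne
  have hc1 : x * y * x⁻¹ * y⁻¹ ≠ 1 := by
    intro h
    apply hne
    have h2 := mul_inv_eq_one.1 h
    exact mul_inv_eq_iff_eq_mul.1 h2
  obtain ⟨k, hk⟩ := exists_pow_eq_of_ne_one D.hzp (D.hcomm x hxP y hyP) hc1
  apply hαz
  have h1 : (⟨z, D.hzU⟩ : U) =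
      ((⟨x, hxU⟩ : U) * ⟨y, hyU⟩ * (⟨x, hxU⟩ : U)⁻¹ * (⟨y, hyU⟩ : U)⁻¹) ^ k :=
    Subtype.ext hk.symm
  rw [h1, map_pow, Subgroup.coe_pow, map_mul, map_mul, map_mul, map_inv, map_inv]
  apply Subgroup.pow_mem
  exact D.hcomm _ (D.aut_mem hα hxP) _ (D.aut_mem hα hyP)

theorem inv_z_not_mem (D : GELocal p F P U z) {α : MulAut U}
    (hαz : ((α ⟨z, D.hzU⟩ : U) : Ω) ∉ Subgroup.zpowers z) :
    ((α⁻¹ ⟨z, D.hzU⟩ : U) : Ω) ∉ Subgroup.zpowers z := by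
  rintro ⟨k, hk⟩
  apply hαz
  have hk' : z ^ k = ((α⁻¹ ⟨z, D.hzU⟩ : U) : Ω) := hk
  have h1 : α⁻¹ ⟨z, D.hzU⟩ = (⟨z, D.hzU⟩ : U) ^ k := by
    apply Subtype.ext
    rw [← hk', Subgroup.coe_zpow]
  have h2 : (⟨z, D.hzU⟩ : U) = (α ⟨z, D.hzU⟩) ^ k := by
    have := congrArg α h1
    rwa [MulAut.apply_inv_self, map_zpow] at this
  have h3 : (α ⟨z, D.hzU⟩) ^ p = 1 := by
    rw [← map_pow]
    have : (⟨z, D.hzU⟩ : U) ^ p = 1 := Subtype.ext D.hzp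
    rw [this, map_one]
  have h4 : (⟨z, D.hzU⟩ : U) ≠ 1 := fun h => D.hz1 (congrArg Subtype.val h)
  obtain ⟨l, hl⟩ := mem_zpowers_of_ne_one h3 ⟨k, h2.symm⟩ h4
  refine ⟨l, ?_⟩
  have hl' : (⟨z, D.hzU⟩ : U) ^ l = α ⟨z, D.hzU⟩ := hl
  show z ^ l = _
  rw [← hl', Subgroup.coe_zpow]

/-- For odd `p`, every element of `N_P(U) ∖ U` has order `p`. -/
theorem pow_eq_one_of_odd (hS : IsPGroup p S) (D : GELocal p F P U z) (hp2 : p ≠ 2)
    {α : MulAut U} (hα : α ∈ F.autGroup U)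
    (hαz : ((α ⟨z, D.hzU⟩ : U) : Ω) ∉ Subgroup.zpowers z) {n : Ω}
    (hnP : n ∈ P) (hnN : n ∈ normalizerIn S U) (hnU : n ∉ U) : n ^ p = 1 := by
  obtain ⟨t, ht, e⟩ := exists_conj_aut F D.hU hnN
  have hαi : α⁻¹ ∈ F.autGroup U := Subgroup.inv_mem _ hα
  have hne1 := D.conj_ne hS hα hαz hnP hnN hnU
  have hne2 := D.conj_ne hS hαi (D.inv_z_not_mem hαz) hnP hnN hnU
  have hcen := fun g hgP hg => D.centralizer_le hS hα hαz (g := g) hgP hg
  set zU : U := ⟨z, D.hzU⟩ with hzU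
  set z1U : U := α zU with hz1U
  have hzU0 : zU ∈ P.subgroupOf U := Subgroup.mem_subgroupOf.2 D.hzP
  have hz1U0 : z1U ∈ P.subgroupOf U := D.aut_mem' hα _ hzU0
  have happ : ∀ x, (α * t * α⁻¹) x = α (t (α⁻¹ x)) := fun x => rfl
  have htz : t zU = zU := D.conj_z hnN.1 e
  have hab : ∀ x ∈ P.subgroupOf U, ∀ y ∈ P.subgroupOf U, x * y = y * x := fun x hx y hy =>
    Subtype.ext (D.abelian hα hαz x.2 (Subgroup.mem_subgroupOf.1 hx) y.2
      (Subgroup.mem_subgroupOf.1 hy))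
  have hzUp : zU ^ p = 1 := Subtype.ext D.hzp
  have hz1Up : z1U ^ p = 1 := by rw [hz1U, ← map_pow, hzUp, map_one]
  obtain ⟨h, hh, hhz, hcommute⟩ := exists_inverting (p := p) (P.subgroupOf U) hab t (α * t * α⁻¹)
    zU z1U hzU0 hz1U0 (D.conj_U0 hnP e)
    (fun x hx => by
      obtain ⟨k, hk⟩ := D.conj_U0 hnP e (α⁻¹ x) (D.aut_mem' hαi x hx)
      exact ⟨k, by rw [happ, hk, map_mul, map_zpow, MulAut.apply_inv_self]⟩)
    htz (by rw [happ, hz1U, MulAut.inv_apply_self, htz]) hzUp hz1Up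
    (fun h1 => hne1 (by rw [← e]; exact congrArg Subtype.val h1))
    (fun h1 => hne2 (by
      rw [← e]
      apply congrArg Subtype.val
      rw [happ] at h1
      apply α.injective
      rw [h1, MulAut.apply_inv_self]))
  -- `h` acts trivially on `U / U ∩ P`
  have hinv : ∀ a ∈ F.autGroup U, ∀ x ∈ P.subgroupOf U, a x ∈ P.subgroupOf U :=
    fun a ha => D.aut_mem' ha
  have htQ : t ∈ quotStab (F.autGroup U) (P.subgroupOf U) hinv :=
    (mem_quotStab _ _ hinv t).2 ⟨ht, D.conj_quot hnP e⟩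
  have ht1Q : α * t * α⁻¹ ∈ quotStab (F.autGroup U) (P.subgroupOf U) hinv :=
    quotStab_conj _ _ hinv α hα t htQ
  have hhQ : h ∈ quotStab (F.autGroup U) (P.subgroupOf U) hinv := by
    have hle : Subgroup.closure ({t, α * t * α⁻¹} : Set (MulAut U)) ≤
        quotStab (F.autGroup U) (P.subgroupOf U) hinv := by
      rw [Subgroup.closure_le]
      rintro a (rfl | ha)
      · exact htQ
      · rw [Set.mem_singleton_iff] at ha
        rw [ha]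
        exact ht1Q
    exact hle hh
  have hhA : h ∈ F.autGroup U := quotStab_le _ _ hinv hhQ
  have hκQ : h * t * h⁻¹ * t⁻¹ ∈ quotStab (F.autGroup U) (P.subgroupOf U) hinv :=
    Subgroup.mul_mem _ (Subgroup.mul_mem _ (Subgroup.mul_mem _ hhQ htQ) (Subgroup.inv_mem _ hhQ))
      (Subgroup.inv_mem _ htQ)
  obtain ⟨hκA, hκq⟩ := (mem_quotStab _ _ hinv _).1 hκQ
  have hκfix : ∀ x ∈ P.subgroupOf U, (h * t * h⁻¹ * t⁻¹) x = x := by
    intro x hx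
    show h (t (h⁻¹ (t⁻¹ x))) = x
    have hy : h⁻¹ (t⁻¹ x) ∈ P.subgroupOf U :=
      hinv _ (Subgroup.inv_mem _ hhA) _ (hinv _ (Subgroup.inv_mem _ ht) x hx)
    rw [hcommute _ hy, MulAut.apply_inv_self, MulAut.apply_inv_self]
  have hκ := D.mem_pCore_of_trivial hS _ hκA hκfix hκq
  rw [D.hr.2, inn_eq_autInducedBy] at hκ
  have hκS : h * t * h⁻¹ * t⁻¹ ∈ autInducedBy S U := by
    obtain ⟨g, hg, eg⟩ := (mem_autInducedBy_iff U U _).1 hκ
    exact (mem_autInducedBy_iff S U _).2 ⟨g, D.hU hg, eg⟩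
  have htS : t ∈ autInducedBy S U := (mem_autInducedBy_iff S U t).2 ⟨n, hnN.1, e⟩
  have hconj : h * t * h⁻¹ ∈ autInducedBy S U := by
    have := Subgroup.mul_mem _ hκS htS
    rwa [inv_mul_cancel_right] at this
  obtain ⟨N, f', hnN', hUN, hf', hfe⟩ := D.exists_extension hhA hnN.1 e hconj
  have hmP : f' n ∈ P := StronglyClosed.mor_mem D.hP hf' hnN' hnP
  -- `f' n` and `n` act in the same way on `z1`
  have hy : h⁻¹ z1U ∈ P.subgroupOf U := hinv _ (Subgroup.inv_mem _ hhA) _ hz1U0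
  have h3 : f' n * (z1U : Ω) * (f' n)⁻¹ = n * (z1U : Ω) * n⁻¹ := by
    have h4 : f' (n * ((h⁻¹ z1U : U) : Ω) * n⁻¹) = f' n * (z1U : Ω) * (f' n)⁻¹ := by
      rw [hf'.map_mul (N.mul_mem hnN' (hUN (h⁻¹ z1U).2)) (N.inv_mem hnN'),
        hf'.map_mul hnN' (hUN (h⁻¹ z1U).2), hf'.map_inv hnN', hfe, MulAut.apply_inv_self]
    rw [← h4, ← e, hfe, hcommute _ hy, MulAut.apply_inv_self, e]
  have hu0P : n⁻¹ * f' n ∈ P := P.mul_mem (P.inv_mem hnP) hmP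
  have hu0U : n⁻¹ * f' n ∈ U := by
    apply hcen _ hu0P
    have h5 : f' n * (z1U : Ω) = n * (z1U : Ω) * n⁻¹ * f' n := by
      rw [← h3, inv_mul_cancel_right]
    rw [mul_assoc, h5]
    group
  have hu0p : (n⁻¹ * f' n) ^ p = 1 := D.pow_eq_one hα hαz hu0U hu0P
  -- the class two formula
  obtain ⟨k, hk⟩ := D.hcomm _ (P.inv_mem hu0P) _ (P.inv_mem hnP)
  have hk' : z ^ k = (n⁻¹ * f' n)⁻¹ * n⁻¹ * (n⁻¹ * f' n)⁻¹⁻¹ * n⁻¹⁻¹ := hk
  have hzcomm : ∀ s ∈ S, Commute (z ^ k) s := fun s hs =>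
    (show Commute z s from (D.hzc s hs).symm).zpow_left k
  have hform := Helper3.mul_pow_of_central (x := n) (y := n⁻¹ * f' n) (c := z ^ k)
    (by rw [hk']; group) (hzcomm n hnN.1) (hzcomm _ (D.hP.1 hu0P)) p
  have hlt : 2 < p := lt_of_le_of_ne (Fact.out : p.Prime).two_le (Ne.symm hp2)
  obtain ⟨j, hj⟩ := (Fact.out : p.Prime).dvd_choose_self (by norm_num : (2 : ℕ) ≠ 0) hlt
  have hzk : (z ^ k) ^ p = 1 := by
    rw [← zpow_natCast, ← zpow_mul, mul_comm, zpow_mul, zpow_natCast, D.hzp, one_zpow]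
  rw [mul_inv_cancel_left, hu0p, mul_one, hj, pow_mul, hzk, one_pow, mul_one] at hform
  -- `f'` inverts `n ^ p`
  obtain ⟨l, hl⟩ := D.hpow n hnP
  have hl' : z ^ l = n ^ p := hl
  have h6 : f' (n ^ p) = (n ^ p)⁻¹ := by
    have h7 := hfe (zU ^ l)
    rw [map_zpow, hhz, Subgroup.coe_zpow, Subgroup.coe_zpow, Subgroup.coe_inv] at h7
    have h8 : ((zU : U) : Ω) = z := rfl
    rw [h8, hl', inv_zpow, hl'] at h7
    exact h7
  rw [hf'.map_pow hnN', hform] at h6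
  have h9 : (n ^ p) ^ 2 = 1 := by
    rw [pow_two]
    nth_rewrite 1 [h6]
    exact inv_mul_cancel _
  have h10 : (n ^ p) ^ p = 1 := by
    rw [← hl', ← zpow_natCast, ← zpow_mul, mul_comm, zpow_mul, zpow_natCast, D.hzp, one_zpow]
  have h11 := pow_gcd_eq_one.2 ⟨h9, h10⟩
  have h12 : Nat.gcd 2 p = 1 :=
    (Nat.coprime_primes Nat.prime_two (Fact.out : p.Prime)).2 (Ne.symm hp2)
  rwa [h12, pow_one] at h11

/-- If `⟨z⟩` is invariant under `Aut_F(U)` then `P ≤ U`. -/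
theorem le_of_invariant (hS : IsPGroup p S) (D : GELocal p F P U z)
    (hinvz : ∀ α ∈ F.autGroup U, ((α ⟨z, D.hzU⟩ : U) : Ω) ∈ Subgroup.zpowers z) : P ≤ U := by
  apply le_of_normalizer_inter_le hS D.hU D.hP.1
    (D.hU.trans (stronglyClosed_le_normalizer D.hP))
  intro g hgP hgN
  obtain ⟨β, hβ, e⟩ := exists_conj_aut F D.hU (g := g) ⟨D.hP.1 hgP, hgN⟩
  refine mem_of_conj_mem_pCore D.hc D.hr (D.hP.1 hgP) β ?_ e
  refine mem_pCore_of_stab hS D.hU (Subgroup.zpowers (⟨z, D.hzU⟩ : U)) (P.subgroupOf U) ⊤ ?_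
    (fun α hα => D.aut_mem' hα) (fun _ _ _ _ => Subgroup.mem_top _) β hβ ?_ ?_ ?_ ?_
  · intro α hα x hx
    obtain ⟨k, rfl⟩ := hx
    obtain ⟨l, hl⟩ := hinvz α hα
    have hl' : z ^ l = ((α ⟨z, D.hzU⟩ : U) : Ω) := hl
    have h1 : α ⟨z, D.hzU⟩ = (⟨z, D.hzU⟩ : U) ^ l := by
      apply Subtype.ext
      rw [← hl', Subgroup.coe_zpow]
    show α ((⟨z, D.hzU⟩ : U) ^ k) ∈ _
    rw [map_zpow, h1]
    exact Subgroup.zpow_mem _ (Subgroup.zpow_mem _ (Subgroup.mem_zpowers _) l) k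
  · intro x hx
    obtain ⟨k, rfl⟩ := hx
    show β ((⟨z, D.hzU⟩ : U) ^ k) = (⟨z, D.hzU⟩ : U) ^ k
    rw [map_zpow, D.conj_z (D.hP.1 hgP) e]
  · intro x hx
    obtain ⟨k, hk⟩ := D.conj_U0 hgP e x hx
    rw [hk, inv_mul_cancel_left]
    exact Subgroup.zpow_mem _ (Subgroup.mem_zpowers _) k
  · exact fun x _ => D.conj_quot hgP e x
  · exact fun _ => Subgroup.mem_top _

/-- Summary of the local analysis. -/
theorem exists_data (hS : IsPGroup p S) (D : GELocal p F P U z) (hPU : ¬ P ≤ U) :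
    ∃ w n : Ω, w ∈ U ∧ w ∈ P ∧ n ∈ P ∧ n ∉ U ∧ (∀ g ∈ P, g * w = w * g → g ∈ U) ∧
      (∀ x ∈ U, x ∈ P → x ^ p = 1) ∧ (∀ x ∈ U, x ∈ P → ∀ y ∈ U, y ∈ P → x * y = y * x) ∧
      (p ≠ 2 → n ^ p = 1) := by
  obtain ⟨α, hα, hαz⟩ : ∃ α ∈ F.autGroup U,
      ((α ⟨z, D.hzU⟩ : U) : Ω) ∉ Subgroup.zpowers z := by
    by_contra hcon
    push Not at hcon
    exact hPU (D.le_of_invariant hS hcon)
  obtain ⟨n, hnP, hnN, hnU⟩ : ∃ n ∈ P, n ∈ Subgroup.normalizer (U : Set Ω) ∧ n ∉ U := by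
    by_contra hcon
    push Not at hcon
    exact hPU (le_of_normalizer_inter_le hS D.hU D.hP.1
      (D.hU.trans (stronglyClosed_le_normalizer D.hP)) hcon)
  refine ⟨((α ⟨z, D.hzU⟩ : U) : Ω), n, (α ⟨z, D.hzU⟩).2, D.aut_mem hα D.hzP, hnP, hnU,
    fun g hgP hg => D.centralizer_le hS hα hαz hgP hg,
    fun x hxU hxP => D.pow_eq_one hα hαz hxU hxP,
    fun x hxU hxP y hyU hyP => D.abelian hα hαz hxU hxP hyU hyP,
    fun hp2 => D.pow_eq_one_of_odd hS hp2 hα hαz hnP ⟨D.hP.1 hnP, hnN⟩ hnU⟩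

end GELocal

/-- A strongly closed subgroup contained in a conjugate of `U` is contained in `U`. -/
theorem le_of_conj_le [Finite S] {F : FusionSystem S} {P U U' : Subgroup Ω}
    (hP : F.StronglyClosed P) (hconj : F.IsConj U U') (h : P ≤ U') : P ≤ U := by
  obtain ⟨f, hf⟩ := (isConj_iff F U U').1 hconj
  obtain ⟨g, hg, -, -⟩ := hf.symm
  have : Finite P := finite_of_le hP.1
  let φ : P → P := fun x => ⟨g x, StronglyClosed.mor_mem hP hg.1 (h x.2) x.2⟩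
  have hinj : Function.Injective φ := by
    intro x y hxy
    exact Subtype.ext (hg.1.inj (h x.2) (h y.2) (congrArg Subtype.val hxy))
  intro y hy
  obtain ⟨x, hx⟩ := (Finite.injective_iff_surjective.1 hinj) ⟨y, hy⟩
  have h1 : g x = y := congrArg Subtype.val hx
  rw [← h1]
  exact hg.map_mem (h x.2)

end Cfsg.Agent.Lib.Helper89
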