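import Cfsg.Agent.S5086
import Cfsg.Agent.Lib.Helper59.CycSelfCentA
import Cfsg.Agent.Lib.Helper89.Radical
import Cfsg.Agent.Lib.Helper89.GenExtraLocal

set_option autoImplicit false

namespace Cfsg.Agent.Lib.Helper89

open Cfsg Cfsg.FusionSystem Cfsg.Agent.Lib.Helper87
open scoped commutatorElement

variable {Ω : Type*} [Group Ω] {S : Subgroup Ω}

/-- The derived subgroup of a strongly closed `P`, if of order `p`, is central in `S`. -/
theorem commutator_central [Finite S] {p : ℕ} [Fact p.Prime] (hS : IsPGroup p S)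
    {F : FusionSystem S} {P : Subgroup Ω} (hP : F.StronglyClosed P)
    (hcard : Nat.card ↥(commutator ↥P) = p) (c : ↥P) (hc : c ∈ commutator ↥P) (s : Ω)
    (hs : s ∈ S) : s * (c : Ω) = (c : Ω) * s := by
  have hPS : P ≤ S := hP.1
  let N : Subgroup ↥S := (commutator ↥P).map (Subgroup.inclusion hPS)
  have hN : N.Normal := by
    constructor
    rintro _ ⟨d, hd, rfl⟩ t
    obtain ⟨α, -, e⟩ := exists_conj_aut F hPS (g := (t : Ω))
      ⟨t.2, stronglyClosed_le_normalizer hP t.2⟩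
    refine ⟨α d, ?_, Subtype.ext ?_⟩
    · have h1 := Subgroup.characteristic_iff_comap_eq.1
        (inferInstance : (commutator ↥P).Characteristic) α
      have h2 : d ∈ (commutator ↥P).comap α.toMonoidHom := by
        rw [h1]
        exact hd
      exact h2
    · show ((α d : P) : Ω) = _
      rw [e]
      rfl
  have hNcard : Nat.card N = p := by
    rw [← hcard]
    exact Subgroup.card_map_of_injective (Subgroup.inclusion_injective hPS)
  have hle := Helper59.le_center_of_normal_card_prime hS N hNcard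
  have h1 : Subgroup.inclusion hPS c ∈ Subgroup.center ↥S := hle ⟨c, hc, rfl⟩
  exact congrArg Subtype.val (Subgroup.mem_center_iff.1 h1 ⟨s, hs⟩)

/-- A strongly closed generalized extraspecial subgroup not of the form `E × A` is normal. -/
theorem genExtra_normal [Finite S] (p : ℕ) [Fact p.Prime] (hS : IsPGroup p S)
    (F : Cfsg.FusionSystem S) (hF : F.IsSaturated p) (P : Subgroup Ω) (hP : F.StronglyClosed P)
    (hge : frattini ↥P = commutator ↥P ∧ Nat.card ↥(commutator ↥P) = p)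
    (h2 : p = 2 → ¬ ∃ (A : Type) (_ : CommGroup A), (∀ a : A, a ^ 2 = 1) ∧
      Nonempty (↥P ≃* DihedralGroup 4 × A))
    (hodd : p ≠ 2 → ¬ ∃ (E : Type) (_ : Group E) (A : Type) (_ : CommGroup A),
      Cfsg.IsExtraspecial p E ∧ Nat.card E = p ^ 3 ∧ Monoid.exponent E = p ∧
      (∀ a : A, a ^ p = 1) ∧ Nonempty (↥P ≃* E × A)) : F.IsNormal P := by
  obtain ⟨hfr, hcard⟩ := hge
  have hPS : P ≤ S := hP.1
  have hfin : Finite P := finite_of_le hPS
  have hPp : IsPGroup p P := hS.to_le hPS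
  rw [Cfsg.Agent.S5086.result p hS F hF P]
  refine ⟨hP, fun U hUc hUr => ?_⟩
  obtain ⟨U', hconj, hfa, hrec⟩ := hF U hUc.1
  apply le_of_conj_le hP hconj
  by_contra hPU
  -- a generator of the derived subgroup
  have hnt : Nontrivial ↥(commutator ↥P) := by
    rw [← Finite.one_lt_card_iff_nontrivial, hcard]
    exact (Fact.out : p.Prime).one_lt
  obtain ⟨c, hc⟩ := exists_ne (1 : ↥(commutator ↥P))
  have hc1 : (c : ↥P) ≠ 1 := fun h => hc (Subtype.ext h)
  have hgen : ∀ d ∈ commutator ↥P, (d : Ω) ∈ Subgroup.zpowers (((c : ↥P) : Ω)) := by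
    intro d hd
    obtain ⟨k, hk⟩ := mem_zpowers_of_mem_commutator hcard c.2 hc1 hd
    refine ⟨k, ?_⟩
    have hk' : (c : ↥P) ^ k = d := hk
    show (((c : ↥P) : Ω)) ^ k = d
    rw [← hk', Subgroup.coe_zpow]
  have D : GELocal p F P U' (((c : ↥P) : Ω)) :=
    { hP := hP
      hfa := hfa
      hrec := hrec
      hc := ⟨isConj_le' hconj, fun Q hQ => hUc.2 Q (isConj_trans hconj hQ)⟩
      hr := isRadical_of_isConj hconj hUr
      hzP := (c : ↥P).2
      hz1 := fun h => hc1 (Subtype.ext h)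
      hzp := by
        have h1 : c ^ p = 1 := by rw [← hcard]; exact pow_card_eq_one'
        have h3 := congrArg (fun x : ↥(commutator ↥P) => (((x : ↥P)) : Ω)) h1
        simpa using h3
      hzc := fun s hs => commutator_central hS hP hcard c c.2 s hs
      hcomm := fun x hx y hy => hgen ⁅(⟨x, hx⟩ : ↥P), ⟨y, hy⟩⁆ (comm_mem_commutator _ _)
      hpow := fun x hx => hgen ((⟨x, hx⟩ : ↥P) ^ p) (hfr ▸ Helper3.pow_p_mem_frattini hPp _) }
  obtain ⟨w, n, hwU, hwP, hnP, hnU, hcen, hexp, hab, hnp⟩ := D.exists_data hS hPU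
  have hcl : commutator ↥P ≤ Subgroup.center ↥P :=
    Helper59.le_center_of_normal_card_prime hPp _ hcard
  have habel : ∀ x ∈ U'.subgroupOf P, ∀ y ∈ U'.subgroupOf P, x * y = y * x := fun x hx y hy =>
    Subtype.ext (hab x (Subgroup.mem_subgroupOf.1 hx) x.2 y (Subgroup.mem_subgroupOf.1 hy) y.2)
  have hexp' : ∀ x ∈ U'.subgroupOf P, x ^ p = 1 := fun x hx =>
    Subtype.ext (hexp x (Subgroup.mem_subgroupOf.1 hx) x.2)
  have hw' : (⟨w, hwP⟩ : ↥P) ∈ U'.subgroupOf P := Subgroup.mem_subgroupOf.2 hwU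
  have hcent : ∀ g : ↥P, Commute (⟨w, hwP⟩ : ↥P) g → g ∈ U'.subgroupOf P := fun g hg =>
    Subgroup.mem_subgroupOf.2 (hcen g g.2 (congrArg Subtype.val hg.eq).symm)
  have hn' : (⟨n, hnP⟩ : ↥P) ∉ U'.subgroupOf P := fun h => hnU (Subgroup.mem_subgroupOf.1 h)
  by_cases hp2 : p = 2
  · subst hp2
    apply h2 rfl
    obtain ⟨n', D'⟩ := GEData.exists_of_sq hcl hcard habel hexp' hw' hcent hn'
      (hfr ▸ Helper3.pow_p_mem_frattini hPp _)
    exact D'.struct_two
  · apply hodd hp2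
    have D' : GEData p (U'.subgroupOf P) (⟨w, hwP⟩ : ↥P) ⟨n, hnP⟩ :=
      ⟨hcl, hcard, habel, hexp', hw', hcent, hn', Subtype.ext (hnp hp2)⟩
    exact D'.struct_odd hPp hp2

end Cfsg.Agent.Lib.Helper89
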