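import Cfsg.Agent.Lib.Helper89.Radical
import Cfsg.Agent.Lib.Helper53.Basic

set_option autoImplicit false

namespace Cfsg.Agent.Lib.Helper89

open Cfsg Cfsg.FusionSystem Cfsg.Agent.Lib.Helper87

/-- Quadratic action of an automorphism. -/
def Quad {Q : Type*} [Group Q] (χ : MulAut Q) : Prop :=
  ∀ a : Q, (χ a⁻¹) * a * (χ a⁻¹) * (χ (χ a)) = 1

theorem quad_iff {Q : Type*} [Group Q] (χ : MulAut Q) :
    Quad χ ↔ ∀ a : Q, χ (a⁻¹ * χ a) = a⁻¹ * χ a := by
  unfold Quad
  refine forall_congr' (fun a => ?_)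
  rw [map_mul, map_inv]
  constructor
  · intro h
    have h1 : (χ a)⁻¹ * χ (χ a) = ((χ a)⁻¹ * a)⁻¹ := by
      apply eq_inv_of_mul_eq_one_right
      rw [← h]
      group
    rw [h1]
    group
  · intro h
    calc (χ a)⁻¹ * a * (χ a)⁻¹ * χ (χ a) = (χ a)⁻¹ * a * ((χ a)⁻¹ * χ (χ a)) := by group
      _ = 1 := by rw [h]; group

theorem quad_congr {P Q : Type*} [Group P] [Group Q] (e : P ≃* Q) {χ : MulAut P} (h : Quad χ) :
    Quad (MulAut.congr e χ) := by
  intro a
  have h1 := h (e.symm a)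
  have h2 : ∀ y : Q, MulAut.congr e χ y = e (χ (e.symm y)) := fun y => rfl
  rw [h2, h2, h2, MulEquiv.symm_apply_apply, map_inv e.symm]
  have h3 := congrArg e h1
  rw [map_mul, map_mul, map_mul, map_one, MulEquiv.apply_symm_apply] at h3
  exact h3

/-- A quadratic automorphism of a finite `p`-group has `p`-power order. -/
theorem quad_pow_eq_one {Q : Type*} [Group Q] [Finite Q] {p : ℕ} [Fact p.Prime] (hQ : IsPGroup p Q)
    {χ : MulAut Q} (h : Quad χ) : ∃ k : ℕ, χ ^ (p ^ k) = 1 := by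
  rw [quad_iff] at h
  set X : Subgroup Q := Subgroup.closure {y : Q | ∃ a : Q, y = a⁻¹ * χ a} with hX
  have hfix : ∀ y ∈ X, χ y = y := by
    intro y hy
    induction hy using Subgroup.closure_induction with
    | mem y hy =>
      obtain ⟨a, rfl⟩ := hy
      exact h a
    | one => exact map_one χ
    | mul a b _ _ iha ihb => rw [map_mul, iha, ihb]
    | inv a _ iha => rw [map_inv, iha]
  refine exists_pow_eq_one_of_stabilizes_chain hQ χ 2
    (fun i => if i = 0 then ⊥ else if i = 1 then X else ⊤) (by simp) (by simp) ?_ ?_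
  · intro i x hx
    by_cases h0 : i = 0
    · subst h0
      simp only [if_true, Subgroup.mem_bot] at hx ⊢
      rw [hx, map_one]
    · by_cases h2 : i = 1
      · subst h2
        simp only [one_ne_zero, if_false, if_true] at hx ⊢
        rw [hfix x hx]
        exact hx
      · simp only [h0, h2, if_false]
        trivial
  · intro i hi x hx
    interval_cases i
    · simp only [zero_add, one_ne_zero, if_false, if_true] at hx ⊢
      rw [Subgroup.mem_bot, hfix x hx, inv_mul_cancel]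
    · simp only [one_ne_zero, if_false, if_true]
      exact Subgroup.subset_closure ⟨x, rfl⟩

variable {Ω : Type*} [Group Ω] {S : Subgroup Ω}

/-- `p`-stability of the system at the subgroup `Q`. -/
def PStableAt (F : FusionSystem S) (p : ℕ) (Q : Subgroup Ω) : Prop :=
  ∀ χ : MulAut Q, χ ∈ F.autGroup Q → Quad χ →
    χ ∈ (pCore p (F.autGroup Q)).map (F.autGroup Q).subtype

/-- `p`-stability of the system. -/
def PStable (F : FusionSystem S) (p : ℕ) : Prop :=
  ∀ Q : Subgroup Ω, F.IsFullyNormalized Q → PStableAt F p Q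

theorem pStableAt_of_iso {F : FusionSystem S} {p : ℕ} {P Q : Subgroup Ω} {f : Ω → Ω}
    (h : Iso F P Q f) (hQ : PStableAt F p Q) : PStableAt F p P := by
  intro χ hχ hquad
  have h1 := hQ _ (h.congr_mem_autGroup hχ) (quad_congr h.toMulEquiv hquad)
  rw [← map_pCore_autGroup_of_iso h p] at h1
  obtain ⟨χ', hχ', e⟩ := h1
  have : χ' = χ := (MulAut.congr h.toMulEquiv).injective e
  rwa [← this]

theorem PStable.at_all [Finite S] {F : FusionSystem S} {p : ℕ} (h : PStable F p) {P : Subgroup Ω}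
    (hP : P ≤ S) : PStableAt F p P := by
  obtain ⟨Q, hQ, hQn⟩ := Helper87.exists_fullyNormalized_conj F hP
  obtain ⟨f, hf⟩ := (isConj_iff F P Q).1 hQ
  exact pStableAt_of_iso hf (h Q hQn)

theorem autGroup_le_of_subsystem {T : Subgroup Ω} {E : FusionSystem T} {F : FusionSystem S}
    (h : E.IsSubsystemOf F) (Q : Subgroup Ω) : E.autGroup Q ≤ F.autGroup Q := by
  unfold FusionSystem.autGroup
  apply Subgroup.closure_mono
  intro α hα
  exact h Q hα

theorem pStableAt_of_autGroup_le {T : Subgroup Ω} {E : FusionSystem T} {F : FusionSystem S} {p : ℕ}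
    {Q : Subgroup Ω} (h : E.autGroup Q ≤ F.autGroup Q) (hQ : PStableAt F p Q) :
    PStableAt E p Q := by
  intro χ hχ hquad
  exact Helper53.pCoreOf_inf_le p h ⟨hQ χ (h hχ) hquad, hχ⟩

theorem PStable.of_subsystem [Finite S] {T : Subgroup Ω} {E : FusionSystem T} {F : FusionSystem S}
    {p : ℕ} (hEF : E.IsSubsystemOf F) (hTS : T ≤ S) (h : PStable F p) : PStable E p := by
  intro Q hQ
  exact pStableAt_of_autGroup_le (autGroup_le_of_subsystem hEF Q) (h.at_all (hQ.1.trans hTS))

theorem mulAut_comm_of_isCyclic {Q : Type*} [Group Q] [IsCyclic Q] (a b : MulAut Q) :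
    a * b = b * a := by
  obtain ⟨m, hm⟩ := MonoidHom.map_cyclic a.toMonoidHom
  ext x
  have h1 : ∀ y, a y = y ^ m := hm
  rw [MulAut.mul_apply, MulAut.mul_apply, h1, h1, map_zpow]

theorem pStableAt_of_isCyclic [Finite S] {p : ℕ} [Fact p.Prime] (hS : IsPGroup p S)
    (F : FusionSystem S) {Q : Subgroup Ω} (hQ : Q ≤ S) (hc : IsCyclic Q) : PStableAt F p Q := by
  intro χ hχ hquad
  have : Finite Q := finite_of_le hQ
  obtain ⟨k, hk⟩ := quad_pow_eq_one (hS.to_le hQ) hquad
  refine Helper53.le_pCoreOf (A := Subgroup.zpowers χ) (by rwa [Subgroup.zpowers_le]) ?_ ?_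
    (Subgroup.mem_zpowers χ)
  · intro β _
    rw [Subgroup.mem_normalizer_iff]
    intro γ
    rw [mulAut_comm_of_isCyclic β γ, mul_inv_cancel_right]
  · rintro ⟨g, hg⟩
    obtain ⟨n, rfl⟩ := Subgroup.mem_zpowers_iff.1 hg
    refine ⟨k, Subtype.ext ?_⟩
    show (χ ^ n) ^ (p ^ k) = 1
    rw [← zpow_natCast, ← zpow_mul, mul_comm, zpow_mul, zpow_natCast, hk, one_zpow]

end Cfsg.Agent.Lib.Helper89
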