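import Cfsg.Agent.Lib.Helper89.UnipotentPower

set_option autoImplicit false

namespace Cfsg.Agent.Lib.Helper89

/-- Multiplicative version: an endomorphism `σ` of an abelian group with `σ ^ p = 1` and
`(σ - 1) ^ (n (p - 1) + 1) = 0` fixes all `p ^ n`-th powers. -/
theorem fixes_pow_of_unipotent {A : Type*} [CommGroup A] (p n : ℕ) (hp : p.Prime) (σ : A →* A)
    (h1 : ∀ a, σ^[p] a = a) (h2 : ∀ a, (fun x => σ x * x⁻¹)^[n * (p - 1) + 1] a = 1) (a : A) :
    σ (a ^ (p ^ n)) = a ^ (p ^ n) := by
  set σ' : Module.End ℤ (Additive A) := (MonoidHom.toAdditive σ).toIntLinearMap with hσ'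
  set D : Module.End ℤ (Additive A) := σ' - 1 with hD
  have hσa : ∀ x : Additive A, σ' x = Additive.ofMul (σ x.toMul) := fun x => rfl
  have hDa : ∀ x : Additive A, D x = Additive.ofMul (σ x.toMul * (x.toMul)⁻¹) := by
    intro x
    rw [hD, LinearMap.sub_apply, hσa, Module.End.one_apply, sub_eq_add_neg]
    rfl
  have hσk : ∀ (k : ℕ) (x : Additive A), (σ' ^ k) x = Additive.ofMul (σ^[k] x.toMul) := by
    intro k
    induction k with
    | zero => intro x; rfl
    | succ k ih =>
      intro x
      rw [pow_succ, Module.End.mul_apply, ih, hσa, Function.iterate_succ_apply]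
      rfl
  have hDk : ∀ (k : ℕ) (x : Additive A),
      (D ^ k) x = Additive.ofMul ((fun x => σ x * x⁻¹)^[k] x.toMul) := by
    intro k
    induction k with
    | zero => intro x; rfl
    | succ k ih =>
      intro x
      rw [pow_succ, Module.End.mul_apply, ih, hDa, Function.iterate_succ_apply]
      rfl
  have e1 : (1 + D) ^ p = 1 := by
    have : 1 + D = σ' := by rw [hD]; abel
    rw [this]
    ext x
    rw [hσk, h1]
    rfl
  have e2 : D ^ (n * (p - 1) + 1) = 0 := by
    ext x
    rw [hDk, h2]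
    rfl
  have e3 := pow_mul_eq_zero_of_unipotent p n hp D e1 e2
  have e4 := congrArg (fun f : Module.End ℤ (Additive A) => f (Additive.ofMul a)) e3
  simp only [Module.End.mul_apply, LinearMap.zero_apply] at e4
  have e5 : ∀ y : Additive A, ((p : Module.End ℤ (Additive A)) ^ n) y = (p ^ n) • y := by
    intro y
    rw [← Nat.cast_pow, Module.End.natCast_apply]
  rw [e5, hDa] at e4
  have e6 : (σ a * a⁻¹) ^ (p ^ n) = 1 := by
    have := congrArg Additive.toMul e4
    rw [toMul_nsmul, toMul_ofMul, toMul_zero] at this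
    exact this
  rw [mul_pow, inv_pow, mul_inv_eq_one, ← map_pow] at e6
  exact e6

/-- Group version: in a group `S` of class at most `n (p - 1) + 1`, an element `s` normalizing `R`
with `s ^ p ∈ R` centralizes the `p ^ n`-th powers of the elements of `Z(R)`. -/
theorem conj_fixes_pow {Ω : Type*} [Group Ω] {S R : Subgroup Ω} (p n : ℕ) (hp : p.Prime)
    (hRS : R ≤ S) (hcl : Subgroup.lowerCentralSeries S (n * (p - 1) + 1) = ⊥) {s : Ω} (hs : s ∈ S)
    (hsN : s ∈ Subgroup.normalizer (R : Set Ω)) (hsp : s ^ p ∈ R) {b : Ω}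
    (hb : b ∈ R ⊓ Subgroup.centralizer (R : Set Ω)) : s * b ^ (p ^ n) * s⁻¹ = b ^ (p ^ n) := by
  set Z : Subgroup Ω := R ⊓ Subgroup.centralizer (R : Set Ω) with hZ
  let _ : CommGroup Z :=
    { (inferInstance : Group Z) with
      mul_comm := fun x y => Subtype.ext (Subgroup.mem_centralizer_iff.1 x.2.2 y y.2.1).symm }
  have hconj : ∀ x ∈ Z, s * x * s⁻¹ ∈ Z := by
    intro x hx
    refine Subgroup.mem_inf.2 ⟨(Subgroup.mem_normalizer_iff.1 hsN x).1 hx.1, ?_⟩
    rw [Subgroup.mem_centralizer_iff]
    intro r hr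
    have hr' : s⁻¹ * r * s ∈ R := by
      have := (Subgroup.mem_normalizer_iff.1 (Subgroup.inv_mem _ hsN) r).1 hr
      simpa using this
    have h1 := Subgroup.mem_centralizer_iff.1 hx.2 _ hr'
    calc r * (s * x * s⁻¹) = s * ((s⁻¹ * r * s) * x) * s⁻¹ := by group
      _ = s * (x * (s⁻¹ * r * s)) * s⁻¹ := by rw [h1]
      _ = s * x * s⁻¹ * r := by group
  let σ : Z →* Z :=
    { toFun := fun x => ⟨s * x * s⁻¹, hconj x x.2⟩
      map_one' := by ext; simp
      map_mul' := fun x y => by ext; simp }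
  have hσ : ∀ x : Z, ((σ x : Z) : Ω) = s * x * s⁻¹ := fun x => rfl
  have h1 : ∀ a, σ^[p] a = a := by
    have h2 : ∀ (k : ℕ) (a : Z), ((σ^[k] a : Z) : Ω) = s ^ k * a * (s ^ k)⁻¹ := by
      intro k
      induction k with
      | zero => intro a; simp
      | succ k ih =>
        intro a
        rw [Function.iterate_succ_apply', hσ, ih, pow_succ']
        group
    intro a
    ext
    rw [h2, Subgroup.mem_centralizer_iff.1 a.2.2 _ hsp]
    group
  have h2 : ∀ a, (fun x => σ x * x⁻¹)^[n * (p - 1) + 1] a = 1 := by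
    have h3 : ∀ (k : ℕ) (a : Z),
        (((fun x => σ x * x⁻¹)^[k] a : Z) : Ω) ∈ Subgroup.lowerCentralSeries S k := by
      intro k
      induction k with
      | zero => intro a; exact hRS a.2.1
      | succ k ih =>
        intro a
        rw [Function.iterate_succ_apply', Subgroup.lowerCentralSeries_succ,
          Subgroup.commutator_comm]
        exact Subgroup.commutator_mem_commutator hs (ih a)
    intro a
    have := h3 (n * (p - 1) + 1) a
    rw [hcl, Subgroup.mem_bot] at this
    exact Subtype.ext this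
  have h3 := fixes_pow_of_unipotent p n hp σ h1 h2 ⟨b, hb⟩
  have h4 := congrArg (Subtype.val) h3
  rw [hσ] at h4
  exact h4

end Cfsg.Agent.Lib.Helper89
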