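import Mathlib

set_option autoImplicit false

namespace Cfsg.Agent.Lib.Helper89

open Polynomial

/-- `(1 + X) ^ p - 1 - X ^ p = p X (1 + X v)` in `ℤ[X]`. -/
theorem exists_binom_unit (p : ℕ) (hp : p.Prime) :
    ∃ v : ℤ[X], (1 + X) ^ p - 1 - X ^ p = C (p : ℤ) * X * (1 + X * v) := by
  set P : ℤ[X] := (1 + X) ^ p - 1 - X ^ p with hP
  have hcoeff : ∀ k, P.coeff k = (p.choose k : ℤ) - (if k = 0 then 1 else 0) -
      (if k = p then 1 else 0) := by
    intro k
    rw [hP, coeff_sub, coeff_sub, coeff_one_add_X_pow, coeff_one, coeff_X_pow]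
  have hdvd : ∀ k, (p : ℤ) ∣ P.coeff k := by
    intro k
    rw [hcoeff]
    rcases Nat.eq_zero_or_pos k with rfl | hk
    · simp [hp.ne_zero.symm]
    · rcases lt_trichotomy k p with h | h | h
      · have h1 : p ∣ p.choose k := hp.dvd_choose_self hk.ne' h
        simp only [hk.ne', h.ne, if_false, sub_zero]
        exact_mod_cast h1
      · subst h
        simp [hk.ne']
      · simp [Nat.choose_eq_zero_of_lt h, hk.ne', h.ne']
  obtain ⟨P₂, hP₂⟩ := (C_dvd_iff_dvd_coeff (p : ℤ) P).2 hdvd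
  have hp0 : (p : ℤ) ≠ 0 := by exact_mod_cast hp.ne_zero
  have h0 : P₂.coeff 0 = 0 := by
    have h1 := hcoeff 0
    rw [hP₂, coeff_C_mul] at h1
    simp [hp.ne_zero.symm] at h1
    rcases h1 with h1 | h1
    · exact absurd h1 hp.ne_zero
    · exact h1
  obtain ⟨P₃, hP₃⟩ := X_dvd_iff.2 h0
  have h1 : P₃.coeff 0 = 1 := by
    have h2 := hcoeff 1
    rw [hP₂, hP₃, coeff_C_mul, coeff_X_mul] at h2
    have hp1 : (1 : ℕ) ≠ p := hp.one_lt.ne
    simp [hp1] at h2
    have h3 : (p : ℤ) * P₃.coeff 0 = p * 1 := by rw [h2, mul_one]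
    exact mul_left_cancel₀ hp0 h3
  obtain ⟨v, hv⟩ := X_dvd_sub_C (p := P₃)
  refine ⟨v, ?_⟩
  rw [hP₂, hP₃]
  have : P₃ = 1 + X * v := by
    rw [← hv, h1]
    simp
  rw [this]
  ring

/-- In a commutative ring: `(1 + D) ^ p = 1` and `D ^ (n (p - 1) + 1) = 0` force `p ^ n D = 0`. -/
theorem pow_mul_eq_zero_comm {R : Type*} [CommRing R] (p n : ℕ) (hp : p.Prime) (D : R)
    (h1 : (1 + D) ^ p = 1) (h2 : D ^ (n * (p - 1) + 1) = 0) : (p : R) ^ n * D = 0 := by
  obtain ⟨v, hv⟩ := exists_binom_unit p hp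
  have hrel : (p : R) * D * (1 + D * aeval D v) = - D ^ p := by
    have := congrArg (aeval D) hv
    simp only [map_sub, map_pow, map_add, map_one, aeval_X, map_mul, aeval_C] at this
    rw [h1] at this
    have h3 : (algebraMap ℤ R) (p : ℤ) = (p : R) := by simp
    rw [h3] at this
    rw [← this]
    ring
  set u := aeval D v with hu
  -- cancellation of the unit `1 + D u`
  have hcancel : ∀ Y : R, Y * (1 + D * u) = 0 → Y = 0 := by
    intro Y hY
    have h3 : ∀ k : ℕ, Y = Y * (- (D * u)) ^ k := by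
      intro k
      induction k with
      | zero => simp
      | succ k ih =>
        have h4 : Y = Y * (-(D * u)) := by linear_combination hY
        calc Y = Y * (-(D * u)) ^ k := ih
          _ = (Y * (-(D * u))) * (-(D * u)) ^ k := by rw [← h4]
          _ = Y * (-(D * u)) ^ (k + 1) := by ring
    rw [h3 (n * (p - 1) + 1), neg_pow, mul_pow, h2]
    ring
  have key : ∀ j ≤ n, (p : R) ^ j * D ^ ((n - j) * (p - 1) + 1) = 0 := by
    intro j
    induction j with
    | zero => intro _; simpa using h2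
    | succ j ih =>
      intro hj
      apply hcancel
      have h3 := ih (by omega)
      have h4 : (n - j) * (p - 1) + 1 = (n - (j + 1)) * (p - 1) + p := by
        have h5 : n - j = (n - (j + 1)) + 1 := by omega
        have h6 : 1 ≤ p := hp.one_lt.le
        rw [h5, add_mul, one_mul]
        omega
      rw [h4, pow_add] at h3
      calc (p : R) ^ (j + 1) * D ^ ((n - (j + 1)) * (p - 1) + 1) * (1 + D * u)
          = (p : R) ^ j * D ^ ((n - (j + 1)) * (p - 1)) * ((p : R) * D * (1 + D * u)) := by ring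
        _ = - ((p : R) ^ j * (D ^ ((n - (j + 1)) * (p - 1)) * D ^ p)) := by rw [hrel]; ring
        _ = 0 := by rw [h3, neg_zero]
  have := key n le_rfl
  simpa using this

/-- The polynomial identity behind the previous lemma. -/
theorem exists_poly_identity (p n : ℕ) (hp : p.Prime) :
    ∃ f g : ℤ[X], f * ((1 + X) ^ p - 1) + g * X ^ (n * (p - 1) + 1) = C ((p : ℤ) ^ n) * X := by
  rw [← Ideal.mem_span_pair]
  set I : Ideal ℤ[X] := Ideal.span {(1 + X) ^ p - 1, X ^ (n * (p - 1) + 1)} with hI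
  rw [← Ideal.Quotient.eq_zero_iff_mem]
  have h1 : (1 + Ideal.Quotient.mk I X) ^ p = 1 := by
    have : Ideal.Quotient.mk I ((1 + X) ^ p - 1) = 0 :=
      Ideal.Quotient.eq_zero_iff_mem.2 (Ideal.subset_span (by simp))
    rw [map_sub, map_pow, map_add, map_one, sub_eq_zero] at this
    exact this
  have h2 : (Ideal.Quotient.mk I X) ^ (n * (p - 1) + 1) = 0 := by
    have : Ideal.Quotient.mk I (X ^ (n * (p - 1) + 1)) = 0 :=
      Ideal.Quotient.eq_zero_iff_mem.2 (Ideal.subset_span (by simp))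
    rwa [map_pow] at this
  have h3 := pow_mul_eq_zero_comm p n hp _ h1 h2
  rw [map_mul, ← h3]
  congr 1
  simp

/-- The same in an arbitrary ring. -/
theorem pow_mul_eq_zero_of_unipotent {R : Type*} [Ring R] (p n : ℕ) (hp : p.Prime) (D : R)
    (h1 : (1 + D) ^ p = 1) (h2 : D ^ (n * (p - 1) + 1) = 0) : (p : R) ^ n * D = 0 := by
  obtain ⟨f, g, hfg⟩ := exists_poly_identity p n hp
  have := congrArg (aeval D) hfg
  simp only [map_add, map_mul, map_sub, map_pow, map_one, aeval_X, aeval_C] at this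
  rw [h1, h2, sub_self, mul_zero, mul_zero, add_zero] at this
  rw [this]
  simp

end Cfsg.Agent.Lib.Helper89
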